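import Mathlib
import Cfsg.Agent.Base
import Cfsg.Prelude.Def_DStar
import Cfsg.Agent.Lib.BG.Api.Basic
import Cfsg.Agent.Lib.LocStruct.SylowIn
import Cfsg.Agent.Lib.Thompson.Basic
import Cfsg.Agent.Lib.ZJ.Abstract
import Cfsg.Agent.Lib.Transfer.Residual

/-! The Glauberman–Solomon subgroup `D*(S)`, and Thompson's replacement lemma for abelian subgroups. -/

set_option autoImplicit false

namespace H58.DS

open Cfsg Subgroup H45 H69
open scoped commutatorElement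

universe u

variable {G : Type u} [Group G]

/-- ambient form of the family behind `D*(S)` -/
def Fam (S A : Subgroup G) : Prop :=
  A ≤ S ∧ IsMulCommutative A ∧
    ∀ x ∈ S, ⁅⁅A ⊔ zpowers x, A ⊔ zpowers x⁆, A ⊔ zpowers x⁆ = ⊥ → x ∈ 𝐂(A)

/-- ambient form of `D*(S)` -/
def D (S : Subgroup G) : Subgroup G := sSup {A | Fam S A}

variable {S T A B : Subgroup G}

theorem Fam.mono (h : Fam S A) (h1 : A ≤ T) (h2 : T ≤ S) : Fam T A :=
  ⟨h1, h.2.1, fun x hx => h.2.2 x (h2 hx)⟩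

theorem Fam.le_D (h : Fam S A) : A ≤ D S := le_sSup h

theorem D_le (S : Subgroup G) : D S ≤ S := sSup_le fun _ h => h.1

theorem fam_map {G' : Type u} [Group G'] {f : G →* G'} (hf : Function.Injective f) :
    Fam (S.map f) (A.map f) ↔ Fam S A := by
  have key : ∀ x : G, (⁅⁅A.map f ⊔ zpowers (f x), A.map f ⊔ zpowers (f x)⁆, A.map f ⊔ zpowers (f x)⁆ = ⊥ →
      f x ∈ 𝐂(A.map f)) ↔ (⁅⁅A ⊔ zpowers x, A ⊔ zpowers x⁆, A ⊔ zpowers x⁆ = ⊥ → x ∈ 𝐂(A)) := fun x => by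
    rw [← MonoidHom.map_zpowers, ← Subgroup.map_sup, ← map_commutator, ← map_commutator,
      map_eq_bot_iff_of_injective _ hf, mem_centralizer_iff_commute, mem_centralizer_iff_commute]
    refine imp_congr_right fun _ => ⟨fun h a ha => hf (by simpa using h _ ⟨a, ha, rfl⟩), ?_⟩
    rintro h _ ⟨a, ha, rfl⟩
    rw [← map_mul, ← map_mul, h a ha]
  unfold Fam
  rw [map_le_map_iff_of_injective hf, H24.isMulCommutative_map_iff hf]
  refine and_congr_right fun _ => and_congr_right fun _ => ⟨fun h x hx => (key x).1 (h _ ⟨x, hx, rfl⟩), ?_⟩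
  rintro h _ ⟨x, hx, rfl⟩
  exact (key x).2 (h x hx)

theorem Fam.cj (h : Fam S A) {g : G} (hg : g ∈ 𝐍(S)) : Fam S (A ^ᶜ g) := by
  conv_lhs => rw [← cj_eq_of_mem_normalizer hg]
  exact (fam_map (MulAut.conj g).injective).2 h

theorem fam_top {A : Subgroup G} : Fam ⊤ A ↔ A ∈ dStarFamily G :=
  ⟨fun h => ⟨h.2.1, fun x hx => mem_centralizer_iff_commute.1 (h.2.2 x trivial hx)⟩,
    fun h => ⟨le_top, h.1, fun x _ hx => mem_centralizer_iff_commute.2 (h.2 x hx)⟩⟩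

theorem D_top : D (⊤ : Subgroup G) = dStar G := by
  unfold D dStar
  congr 1
  ext A
  exact fam_top

theorem dStarOf_eq (P : Subgroup G) : dStarOf P = D P := by
  unfold dStarOf
  rw [← D_top]
  unfold D
  rw [H24.map_sSup_eq]
  congr 1
  ext A
  constructor
  · rintro ⟨B, hB, rfl⟩
    have := (fam_map P.subtype_injective).2 hB
    rwa [map_subtype_top] at this
  · intro h
    have e : (A.subgroupOf P).map P.subtype = A := map_subgroupOf_eq_of_le h.1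
    refine ⟨A.subgroupOf P, (fam_map P.subtype_injective).1 ?_, e⟩
    rwa [map_subtype_top, e]

theorem fam_iSup {ι : Sort*} {A : ι → Subgroup G} (h : ∀ i, Fam S (A i))
    (hc : IsMulCommutative (⨆ i, A i : Subgroup G)) : Fam S (⨆ i, A i) := by
  refine ⟨iSup_le fun i => (h i).1, hc, fun x hx h3 => ?_⟩
  rw [← zpowers_le, centsC]
  refine iSup_le fun i => centsC.1 (zpowers_le.2 ((h i).2.2 x hx (eq_bot_iff.2 (h3 ▸ ?_))))
  have : A i ⊔ zpowers x ≤ (⨆ i, A i) ⊔ zpowers x := sup_le_sup_right (le_iSup A i) _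
  exact commutator_mono (commutator_mono this this) this

theorem Fam.cent (h : Fam S A) (hB : B ≤ S) (hc : IsMulCommutative B) (h1 : A ≤ 𝐍(B)) (h2 : B ≤ 𝐍(A)) :
    B ≤ 𝐂(A) := fun b hb => by
  refine h.2.2 b (hB hb) ?_
  have hZ : zpowers b ≤ B := zpowers_le.2 hb
  have hA := abelian_iff_le_centralizer.1 h.2.1
  have hB' := abelian_iff_le_centralizer.1 hc
  have n1 : A ≤ 𝐍(A ⊓ B) := le_normalizer_inf le_normalizer h1
  have n2 : zpowers b ≤ 𝐍(A ⊓ B) := hZ.trans (le_normalizer_inf h2 le_normalizer)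
  have c1 : ⁅A, zpowers b⁆ ≤ A ⊓ B := (commutator_mono le_rfl hZ).trans (commutator_le_inf_of_norm h1 h2)
  have : ⁅A ⊔ zpowers b, A ⊔ zpowers b⁆ ≤ A ⊓ B := by
    refine commutator_sup_le_left n1 n2 (commutator_sup_le_right n1 n2 ?_ c1)
      (commutator_sup_le_right n1 n2 (by rwa [commutator_comm]) ?_)
    · rw [commutator_eq_bot_of_le_centralizer hA]; exact bot_le
    · rw [commutator_eq_bot_of_le_centralizer (sub_abelian_cent2 hc hZ hZ)]; exact bot_le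
  refine commutator_eq_bot_of_le_centralizer (this.trans ?_)
  rw [centralizer_sup]
  exact inf_le_inf hA (centsS hB' hZ)

variable [Finite G] {p : ℕ} [hp : Fact p.Prime]

theorem exists_normal_lt (hS : IsPGroup p S) (h : A < S) : ∃ M, A ≤ M ∧ M < S ∧ S ≤ 𝐍(M) := by
  obtain ⟨M, hM, hmax⟩ := wellFounded_gt.has_min {M : Subgroup G | A ≤ M ∧ M < S} ⟨A, le_rfl, h⟩
  have h1 := lt_inf_normalizer_of_lt hS hM.2
  refine ⟨M, hM.1, hM.2, ?_⟩
  by_contra hn
  exact hmax _ ⟨hM.1.trans h1.le, lt_of_le_of_ne inf_le_left fun e => hn (inf_eq_left.1 e)⟩ h1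

theorem D_abelian (hS : IsPGroup p S) : IsMulCommutative (D S) := by
  induction S using WellFoundedLT.induction with
  | _ S ih =>
  have key : ∀ A, Fam S A → Fam S (ncl A S) := fun A hA => by
    rw [ncl_def]
    refine fam_iSup (fun l => hA.cj (le_normalizer l.2)) ?_
    rcases hA.1.eq_or_lt with e | hlt
    · refine abelianS hA.2.1 (iSup_le fun l => ?_)
      rw [cj_eq_of_mem (e.ge l.2)]
    · obtain ⟨M, hM1, hM2, hM3⟩ := exists_normal_lt hS hlt
      exact abelianS (ih M hM2 (hS.to_le hM2.le))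
        (iSup_le fun l => ((hA.mono hM1 hM2.le).cj (hM3 l.2)).le_D)
  rw [abelian_iff_le_centralizer]
  refine sSup_le fun A hA => centsC.1 (sSup_le fun B hB => ?_)
  have hA' := key A hA
  have hB' := key B hB
  exact (le_ncl B S).trans (centsS (hA'.cent hB'.1 hB'.2.1 (hA'.1.trans (le_normalizer_ncl B S))
    (hB'.1.trans (le_normalizer_ncl A S))) (le_ncl A S))

theorem fam_D (hS : IsPGroup p S) : Fam S (D S) := by
  have := D_abelian hS
  unfold D at this ⊢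
  rw [sSup_eq_iSup'] at this ⊢
  exact fam_iSup (fun i => i.2) this

omit [Finite G] in
theorem norm_D (S : Subgroup G) : 𝐍(S) ≤ 𝐍(D S) :=
  le_normalizer_of_cj_le fun g hg => by
    unfold D
    rw [sSup_eq_iSup', cj_iSup]
    exact iSup_le fun i => (Fam.cj i.2 hg).le_D.trans (by unfold D; rw [sSup_eq_iSup'])

/-- Thompson's lemma -/
theorem thompson_lemma {M : Subgroup G} (hB : IsMulCommutative B) (x : G)
    (hM : M = closure {y | ∃ b ∈ B, y = ⁅x, b⁆}) (hc : IsMulCommutative M) :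
    Nat.card B ≤ Nat.card (M ⊔ B ⊓ 𝐂(M) : Subgroup G) := by
  have hmem : ∀ b ∈ B, ⁅x, b⁆ ∈ M := fun b hb => hM ▸ Subgroup.subset_closure ⟨b, hb, rfl⟩
  have cB : ∀ a ∈ B, ∀ b ∈ B, a * b = b * a := H24.isMulCommutative_iff_mem.1 hB
  have cM : ∀ a ∈ M, ∀ b ∈ M, a * b = b * a := H24.isMulCommutative_iff_mem.1 hc
  have h1 : (𝐂(M)).relIndex B ≤ (𝐂(B)).relIndex M := by
    refine Nat.card_le_card_of_injective (fun q : B ⧸ (𝐂(M)).subgroupOf B =>
      ((⟨⁅x, (q.out : G)⁆, hmem _ q.out.2⟩ : M) : M ⧸ (𝐂(B)).subgroupOf M)) fun q q' e => ?_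
    rw [← QuotientGroup.out_eq' q, ← QuotientGroup.out_eq' q', QuotientGroup.eq]
    have e1 : ⁅x, (q.out : G)⁆⁻¹ * ⁅x, (q'.out : G)⁆ ∈ 𝐂(B) :=
      mem_subgroupOf.1 (QuotientGroup.eq.1 e)
    change (q.out : G)⁻¹ * q'.out ∈ 𝐂(M)
    generalize q.out = a at e1
    generalize q'.out = a' at e1
    obtain ⟨a, ha⟩ := a
    obtain ⟨a', ha'⟩ := a'
    simp only at e1 ⊢
    have hw : a⁻¹ * a' ∈ B := mul_mem (inv_mem ha) ha'
    have e2 : ⁅x, a⁻¹ * a'⁆ ∈ 𝐂(B) := by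
      have e3 := conj_eq_of_mem_centralizer (g := a⁻¹) (centsC.1 (zpowers_le.2 e1) (inv_mem ha))
        (mem_zpowers _)
      have e4 : a⁻¹ * (⁅x, a⁆⁻¹ * ⁅x, a'⁆) * a⁻¹⁻¹ = x * (a⁻¹ * a') * x⁻¹ * (a'⁻¹ * a) := by
        simp only [commutatorElement_def]; group
      rw [e4] at e3
      rw [← e3] at e1
      simpa only [commutatorElement_def, mul_inv_rev, inv_inv] using e1
    generalize a⁻¹ * a' = w at hw e2
    rw [← zpowers_le, centsC, hM, closure_le]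
    rintro _ ⟨c, hc', rfl⟩
    rw [centralizer_zpowers]
    refine mem_cent1_iff.2 ?_
    have e5 : ⁅x, w * c⁆ = ⁅x, w⁆ * (w * ⁅x, c⁆ * w⁻¹) := by simp only [commutatorElement_def]; group
    have e6 : ⁅x, c * w⁆ = ⁅x, c⁆ * (c * ⁅x, w⁆ * c⁻¹) := by simp only [commutatorElement_def]; group
    rw [mem_centralizer_iff_commute.1 e2 c hc', mul_inv_cancel_right, cM _ (hmem c hc') _ (hmem w hw),
      ← cB w hw c hc', e5, mul_right_inj, mul_inv_eq_iff_eq_mul] at e6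
    exact e6.symm
  have h2 := H4.card_inf_mul_relIndex 𝐂(M) B
  have h3 := H4.card_inf_mul_relIndex 𝐂(B) M
  have h4 := H24.card_sup_mul_card_inf' (A := M) (B := B ⊓ 𝐂(M)) (inf_le_right.trans (cents_norm le_rfl))
  have h5 : Nat.card (M ⊓ (B ⊓ 𝐂(M)) : Subgroup G) ≤ Nat.card (𝐂(B) ⊓ M : Subgroup G) :=
    Subgroup.card_le_of_le fun y hy => ⟨abelian_iff_le_centralizer.1 hB hy.2.1, hy.1⟩
  refine Nat.le_of_mul_le_mul_right ?_ (Nat.card_pos (α := (M ⊓ (B ⊓ 𝐂(M)) : Subgroup G)))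
  rw [inf_comm] at h2
  rw [h4, ← h2, ← h3]
  calc _ ≤ Nat.card (B ⊓ 𝐂(M) : Subgroup G) * (𝐂(B)).relIndex M * Nat.card (𝐂(B) ⊓ M : Subgroup G) :=
        Nat.mul_le_mul (Nat.mul_le_mul_left _ h1) h5
    _ = _ := by ring

/-- weak replacement in a metabelian group -/
theorem weak_repl (hT : IsMulCommutative (⁅T, T⁆ : Subgroup G)) (hA : A ∈ H24.maxAb T) :
    ∃ B ∈ H24.maxAb T, T ≤ 𝐍(B) ∧ B ≤ ncl A T := by
  obtain ⟨B, ⟨hB, hBA⟩, hmax⟩ := Set.exists_max_image {B | B ∈ H24.maxAb T ∧ B ≤ ncl A T}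
    (fun U : Subgroup G => Nat.card ↥(U ⊓ ⁅T, T⁆)) (Set.toFinite _) ⟨A, hA, le_ncl A T⟩
  refine ⟨B, hB, fun x hx => H24.mem_normalizer_of_conj_mem fun b hb => ?_, hBA⟩
  obtain ⟨M, hM⟩ : ∃ M, M = closure {y | ∃ b ∈ B, y = ⁅x, b⁆} := ⟨_, rfl⟩
  have hMT : M ≤ ⁅T, T⁆ := by
    rw [hM, closure_le]
    rintro _ ⟨c, hc, rfl⟩
    exact commutator_mem_commutator hx (hB.1 hc)
  have hMA : M ≤ ncl A T := by
    rw [hM, closure_le]
    rintro _ ⟨c, hc, rfl⟩
    exact mul_mem (conj_mem_of_mem_normalizer (le_normalizer_ncl A T hx) (hBA hc)) (inv_mem (hBA hc))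
  have hMc := abelianS hT hMT
  have h1 : M ⊔ B ⊓ 𝐂(M) ∈ H24.maxAb T := H24.mem_maxAb_of_card_le hB
    (sup_le (hMT.trans (der_normalIn T).le) (inf_le_left.trans hB.1))
    (abelian_sup hMc (abelianS hB.2.1 inf_le_left) inf_le_right) (thompson_lemma hB.2.1 x hM hMc)
  have h2 : B ⊓ ⁅T, T⁆ ≤ (M ⊔ B ⊓ 𝐂(M)) ⊓ ⁅T, T⁆ := le_inf
    ((inf_le_inf_left B (centsS (abelian_iff_le_centralizer.1 hT) hMT)).trans le_sup_right) inf_le_right
  have h3 := eq_of_le_of_card_ge h2 (hmax _ ⟨h1, sup_le hMA (inf_le_left.trans hBA)⟩)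
  have h4 : M ≤ B := ((le_inf le_sup_left hMT).trans h3.ge).trans inf_le_left
  have h5 : ⁅x, b⁆ ∈ M := hM ▸ Subgroup.subset_closure ⟨b, hb, rfl⟩
  have := mul_mem (h4 h5) hb
  simpa only [commutatorElement_def, inv_mul_cancel_right] using this

theorem D_le_of_maxAb (hS : IsPGroup p S) (hA : A ∈ H24.maxAb S) : D S ≤ A := by
  have hF := fam_D hS
  have hn : S ≤ 𝐍(D S) := le_normalizer.trans (norm_D S)
  have hT : D S ⊔ A ≤ S := sup_le hF.1 hA.1
  have hAn : A ≤ 𝐍(D S) := hA.1.trans hn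
  have hd : ⁅D S ⊔ A, D S ⊔ A⁆ ≤ D S := by
    refine commutator_sup_le_left le_normalizer hAn (commutator_le_left_of_le_normalizer (hT.trans hn))
      (commutator_sup_le_right le_normalizer hAn (commutator_le_right_of_le_normalizer hAn) ?_)
    rw [abelian_iff_der_eq_bot.1 hA.2.1]; exact bot_le
  obtain ⟨B, hB, hB1, hB2⟩ := weak_repl (abelianS hF.2.1 hd) (H24.mem_maxAb_of_le hA le_sup_right hT)
  have h1 : D S ≤ B := H24.le_of_mem_maxAb_of_le_centralizer hB le_sup_left hF.2.1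
    (centsC.1 (hF.cent (hB.1.trans hT) hB.2.1 (le_sup_left.trans hB1) ((hB.1.trans hT).trans hn)))
  have hc : ⁅D S, A⁆ ≤ D S := commutator_le_left_of_le_normalizer hAn
  have hcn : A ≤ 𝐍(⁅D S, A⁆) := le_normalizer_commutator hAn le_normalizer
  have h2 : ncl A (D S ⊔ A) ≤ ⁅D S, A⁆ ⊔ A := by
    rw [ncl_eq_sup_commutator]
    refine sup_le le_sup_right (le_sup_of_le_left (commutator_sup_le_right ?_ hcn ?_ ?_))
    · exact cents_norm (sub_abelian_cent2 hF.2.1 le_rfl hc)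
    · rw [commutator_comm]
    · rw [abelian_iff_der_eq_bot.1 hA.2.1]; exact bot_le
  refine (le_of_le_sup_commutator (X := A ⊓ D S) (hS.to_le hF.1) (hS.to_le hA.1) hAn inf_le_right
    (le_normalizer_inf le_normalizer hAn) ?_).trans inf_le_left
  rw [sup_comm, ← dedekind_left hcn hc]
  exact le_inf (h1.trans (hB2.trans h2)) le_rfl

end H58.DS
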