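import Mathlib
import Cfsg.Agent.Base
import Cfsg.Agent.Lib.Block.Dih
import Cfsg.Agent.Lib.GW.Basic1

/-! Fusion in groups with a dihedral Sylow 2-subgroup. -/

set_option autoImplicit false
set_option linter.unusedSectionVars false

namespace H58.Dih

open Cfsg Subgroup H73 H33.Dih H23.GW H45 H69

universe u

variable {G : Type u} [Group G] [Finite G] {σ τ : G} {k : ℕ}

theorem exists_data (S : Sylow 2 G) {m : ℕ} (hm : 2 ≤ m) (e : (S : Subgroup G) ≃* DihedralGroup m) :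
    ∃ (k : ℕ) (σ τ : G), DihData (S : Subgroup G) (2 ^ (k + 1)) σ τ := by
  obtain ⟨a, b, h⟩ := H73.exists_dihData (by omega) e
  obtain ⟨k, hk⟩ := IsPGroup.iff_card.1 S.isPGroup'
  rw [h.card] at hk
  obtain ⟨i, -, hi⟩ := (Nat.dvd_prime_pow Nat.prime_two).1 (Dvd.intro_left _ hk)
  obtain _ | j := i
  · omega
  · exact ⟨j, a, b, hi ▸ h⟩

section P
variable {P : Subgroup G}

theorem eq_one_or_J (h : DihData P (2 ^ (k + 1)) σ τ) {u : G} (hu : u ∈ zpowers σ) (h2 : u * u = 1) :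
    u = 1 ∨ u = σ ^ 2 ^ k := by
  by_cases h1 : u = 1
  · exact Or.inl h1
  · exact Or.inr (eq_J h hu (orderOf_eq_prime (by rw [pow_two, h2]) h1))

theorem mul_mem_zpowers (h : DihData P (2 ^ (k + 1)) σ τ) {a b : G} (ha : a ∈ P) (hb : b ∈ P)
    (ha' : a ∉ zpowers σ) (hb' : b ∉ zpowers σ) : a * b ∈ zpowers σ := by
  have h' := dih_change h hb hb'
  obtain ⟨i, e | e⟩ := (h'.mem a).1 ha
  · exact absurd ⟨i, e.symm⟩ ha'
  · rw [e, mul_assoc, h'.bb, mul_one]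
    exact ⟨i, rfl⟩

theorem four_J (h : DihData P (2 ^ (k + 1)) σ τ) {V : Subgroup G} {a b : G} (hV : Four V a b) (hVP : V ≤ P) :
    ∃ s ∈ P, s ∉ zpowers σ ∧ Four V (σ ^ 2 ^ k) s := by
  have ha := hVP hV.mem_left
  have hb := hVP hV.mem_right
  by_cases h1 : a ∈ zpowers σ
  · have e := eq_J h h1 hV.ha
    refine ⟨b, hb, fun h2 => hV.ne (e.trans (eq_J h h2 hV.hb).symm), e ▸ hV⟩
  by_cases h2 : b ∈ zpowers σ
  · exact ⟨a, ha, h1, eq_J h h2 hV.hb ▸ hV.symm⟩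
  · exact ⟨a, ha, h1, eq_J h (mul_mem_zpowers h ha hb h1 h2) hV.hab ▸ hV.rot'.symm⟩

theorem mem_of_commute (h : DihData P (2 ^ (k + 1)) σ τ) {x : G} (hx : x ∈ P) (e : x * τ = τ * x) :
    x ∈ zpowers (σ ^ 2 ^ k) ⊔ zpowers τ := by
  have hV := dih_four h h.b_mem h.notMem
  have key : ∀ i : ℤ, σ ^ i * τ = τ * σ ^ i → σ ^ i ∈ zpowers (σ ^ 2 ^ k) ⊔ zpowers τ := by
    intro i e
    have e2 := h.conj_zpow i
    rw [← e, mul_inv_cancel_right] at e2
    rcases eq_one_or_J h (u := σ ^ i) ⟨i, rfl⟩ (by nth_rewrite 2 [e2]; simp) with e3 | e3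
    · rw [e3]; exact one_mem _
    · rw [e3]; exact hV.mem_left
  obtain ⟨i, rfl | rfl⟩ := (h.mem x).1 hx
  · exact key i e
  · refine mul_mem (key i ?_) hV.mem_right
    rw [← mul_assoc] at e
    exact mul_right_cancel e

theorem conj_refl (h : DihData P (2 ^ (k + 1)) σ τ) (i j : ℤ) :
    σ ^ j * (σ ^ i * τ) * (σ ^ j)⁻¹ = σ ^ (i + 2 * j) * τ := by
  have e := h.conj_zpow (-j)
  rw [zpow_neg, inv_inv] at e
  calc σ ^ j * (σ ^ i * τ) * (σ ^ j)⁻¹ = σ ^ j * σ ^ i * (τ * (σ ^ j)⁻¹ * τ⁻¹) * τ := by group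
    _ = _ := by rw [e]; group

/-- every reflection is conjugate in `P` to `τ` or to `σ τ` -/
theorem refl_cases (h : DihData P (2 ^ (k + 1)) σ τ) {s : G} (hs : s ∈ P) (hs' : s ∉ zpowers σ) :
    ∃ v ∈ P, v * s * v⁻¹ = τ ∨ v * s * v⁻¹ = σ * τ := by
  obtain ⟨i, e | rfl⟩ := (h.mem s).1 hs
  · exact absurd ⟨i, e.symm⟩ hs'
  obtain ⟨j, rfl | rfl⟩ := Int.even_or_odd' i
  · exact ⟨σ ^ (-j), zpow_mem h.a_mem _, Or.inl (by rw [conj_refl h]; simp)⟩
  · exact ⟨σ ^ (-j), zpow_mem h.a_mem _, Or.inr (by rw [conj_refl h]; simp)⟩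

/-- the `P`-conjugates of `τ` -/
theorem conj_τ (h : DihData P (2 ^ (k + 1)) σ τ) {v : G} (hv : v ∈ P) :
    ∃ j : ℤ, v * τ * v⁻¹ = σ ^ (2 * j) * τ := by
  obtain ⟨i, rfl | rfl⟩ := (h.mem v).1 hv
  · exact ⟨i, by simpa using conj_refl h 0 i⟩
  · refine ⟨i, ?_⟩
    have := conj_refl h 0 i
    rw [zpow_zero, one_mul, zero_add] at this
    rw [← this]; group

theorem not_odd (h : DihData P (2 ^ (k + 1)) σ τ) {i j : ℤ} (e : σ ^ (2 * j) * τ = σ ^ (2 * i + 1) * τ) :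
    False := by
  have e' := mul_right_cancel e
  rw [zpow_eq_zpow_iff_modEq, h.ord] at e'
  have := (e'.of_dvd (show (2 : ℤ) ∣ ((2 ^ (k + 1) : ℕ) : ℤ) by push_cast; exact dvd_pow_self 2 (by omega))).dvd
  omega

theorem J_mul_τ (_h : DihData P (2 ^ (k + 2)) σ τ) (i : ℤ) :
    σ ^ 2 ^ (k + 1) * (σ ^ i * τ) = σ ^ (i + 2 * 2 ^ k) * τ := by
  rw [← mul_assoc, ← zpow_natCast, ← zpow_add]
  congr 2
  push_cast
  ring

theorem isConj_J_mul (h : DihData P (2 ^ (k + 2)) σ τ) : IsConj τ (σ ^ 2 ^ (k + 1) * τ) := by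
  have e := J_mul_τ h 0
  have e2 := conj_refl h 0 (2 ^ k)
  rw [zpow_zero, one_mul] at e e2
  exact isConj_iff.2 ⟨_, e2.trans e.symm⟩

theorem le_of_mem (h : DihData P (2 ^ (k + 1)) σ τ) {N : Subgroup G} (h1 : τ ∈ N) (h2 : σ * τ ∈ N) : P ≤ N := by
  have h3 : σ ∈ N := by simpa using mul_mem h2 (inv_mem h1)
  intro x hx
  obtain ⟨i, rfl | rfl⟩ := (h.mem x).1 hx
  · exact zpow_mem h3 i
  · exact mul_mem (zpow_mem h3 i) h1

end P

variable {P : Sylow 2 G}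

theorem syl (P : Sylow 2 G) : Syl 2 (P : Subgroup G) ⊤ := isSylowIn_top P

theorem invol_cases (h : DihData (P : Subgroup G) (2 ^ (k + 1)) σ τ) {t : G} (ht : orderOf t = 2) :
    IsConj t (σ ^ 2 ^ k) ∨ IsConj t τ ∨ IsConj t (σ * τ) := by
  obtain ⟨s, hs, hc⟩ := H41.exists_isConj_mem_sylow P (t := t) (k := 1) (by rw [pow_one, ← ht, pow_orderOf_eq_one])
  have hs2 : orderOf s = 2 := by
    obtain ⟨g, rfl⟩ := isConj_iff.1 hc
    rw [H9.orderOf_conj, ht]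
  by_cases h1 : s ∈ zpowers σ
  · exact Or.inl (eq_J h h1 hs2 ▸ hc)
  · obtain ⟨v, -, e | e⟩ := refl_cases h hs h1
    · exact Or.inr (Or.inl (hc.trans (isConj_iff.2 ⟨v, e⟩)))
    · exact Or.inr (Or.inr (hc.trans (isConj_iff.2 ⟨v, e⟩)))

/-- a four-group is a Sylow subgroup of its centraliser -/
theorem le_of_cent (h : DihData (P : Subgroup G) (2 ^ (k + 1)) σ τ) {V T : Subgroup G} {a b : G}
    (hV : Four V a b) (hT : IsPGroup 2 T) (hc : T ≤ 𝐂(V)) : T ≤ V := by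
  have hW : IsPGroup 2 ↥(T ⊔ V) := isPGroup_sup_of_le_normalizer_right hT hV.isPGroup (cents_norm hc)
  obtain ⟨g, -, hg⟩ := (syl P).exists_cj_le hW le_top
  rw [cj_sup, sup_le_iff] at hg
  obtain ⟨s, hs, hs', hV'⟩ := four_J h (hV.cj g) hg.2
  rw [← cj_le_cj_iff (g := g), hV'.eq]
  intro x hx
  refine mem_of_commute (dih_change h hs hs') (hg.1 hx) ?_
  have : x ∈ 𝐂(V ^ᶜ g) := by rw [← cj_centralizer]; exact cj_mono g hc hx
  exact (mem_centralizer_iff_commute.1 this s hV'.mem_right).symm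

/-- elements centralising `J` induce the same fusion as elements of `P` -/
theorem fusion_J (h : DihData (P : Subgroup G) (2 ^ (k + 1)) σ τ) {g x : G}
    (hg : g * σ ^ 2 ^ k * g⁻¹ = σ ^ 2 ^ k) (hx : x ∈ (P : Subgroup G)) (hx' : g * x * g⁻¹ ∈ (P : Subgroup G)) :
    ∃ v ∈ (P : Subgroup G), v * x * v⁻¹ = g * x * g⁻¹ := by
  have hle := le_centralizer_J h
  obtain ⟨w, hw, e⟩ := (H4.hasNormalPComplement_iff_controls_fusion (P.subtype hle)).1
    (hasNormalPComplement_J h) ⟨x, hle hx⟩ hx ⟨g, mem_centralizer_singleton_iff_conj.2 hg⟩ hx'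
  exact ⟨w, hw, congrArg Subtype.val e⟩

theorem not_conj_of_J (h : DihData (P : Subgroup G) (2 ^ (k + 1)) σ τ) {g : G} {i : ℤ}
    (hg : g * σ ^ 2 ^ k * g⁻¹ = σ ^ 2 ^ k) (e : g * τ * g⁻¹ = σ ^ (2 * i + 1) * τ) : False := by
  obtain ⟨v, hv, e'⟩ := fusion_J h hg h.b_mem (by
    rw [e]; exact mul_mem (zpow_mem h.a_mem _) h.b_mem)
  obtain ⟨j, hj⟩ := conj_τ h hv
  exact not_odd h (hj.symm.trans (e'.trans e))

/-- if `τ` is not conjugate to `J`, then `⟨J, τ⟩` is a Sylow subgroup of `C(τ)` -/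
theorem syl_cent (h : DihData (P : Subgroup G) (2 ^ (k + 1)) σ τ) (hn : ¬ IsConj τ (σ ^ 2 ^ k)) :
    Syl 2 (zpowers (σ ^ 2 ^ k) ⊔ zpowers τ) 𝐂[τ] := by
  have hV := dih_four h h.b_mem h.notMem
  have hle : zpowers (σ ^ 2 ^ k) ⊔ zpowers τ ≤ 𝐂[τ] := hV.le_cent.trans (cent_le_cent1 hV.mem_right)
  obtain ⟨T, hT, hVT⟩ := exists_isSylowIn_le hV.isPGroup hle
  refine hT.of_card_le hV.isPGroup hle ?_
  obtain ⟨g, -, hg⟩ := (syl P).exists_cj_le hT.isP le_top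
  have hs : g * τ * g⁻¹ ∈ (P : Subgroup G) := hg (cj_mem g (hVT hV.mem_right))
  have hs' : g * τ * g⁻¹ ∉ zpowers σ := fun e =>
    hn (isConj_iff.2 ⟨g, eq_J h e (by rw [H9.orderOf_conj, h.orderOf_b])⟩)
  rw [← card_cj T g, hV.card, ← (dih_four h hs hs').card]
  refine Subgroup.card_le_of_le fun x hx => mem_of_commute (dih_change h hs hs') (hg hx) ?_
  have := cj_mono g hT.le hx
  rw [cj_centralizer_singleton] at this
  exact mem_cent1_iff.1 this

theorem not_isConj (h : DihData (P : Subgroup G) (2 ^ (k + 2)) σ τ) (hn : ¬ IsConj τ (σ ^ 2 ^ (k + 1))) :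
    ¬ IsConj τ (σ * τ) := by
  intro hc
  have h' := shift h
  have hn' : ¬ IsConj (σ * τ) (σ ^ 2 ^ (k + 1)) := fun e => hn (hc.trans e)
  obtain ⟨g, hg⟩ := isConj_iff.1 hc
  have h1 := (syl_cent h hn).cj g
  rw [cj_centralizer_singleton, hg] at h1
  obtain ⟨c, hc', e⟩ := h1.conj (syl_cent h' hn')
  rw [cj_cj] at e
  have hV := dih_four h h.b_mem h.notMem
  have hV' := dih_four h' h'.b_mem h'.notMem
  have e1 : c * g * τ * (c * g)⁻¹ = σ * τ := by
    have := mem_centralizer_singleton_iff_conj.1 hc'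
    rw [← this, ← hg]; group
  have e2 : c * g * σ ^ 2 ^ (k + 1) * (c * g)⁻¹ ∈ _ := e ▸ cj_mem (c * g) hV.mem_left
  refine not_conj_of_J h (i := 0) ?_ (by rw [e1]; simp)
  rcases hV'.mem_iff.1 e2 with e3 | e3 | e3 | e3
  · exact absurd e3 (H45.conj_ne_one (fun e4 => by have := hV.ha; rw [e4, orderOf_one] at this; omega))
  · exact e3
  · exact absurd (isConj_iff.2 ⟨_, e3⟩).symm hn'
  · exact absurd ((isConj_J_mul h').trans (isConj_iff.2 ⟨_, e3⟩).symm) hn'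

theorem npc_of_not_conj (h : DihData (P : Subgroup G) (2 ^ (k + 2)) σ τ)
    (h1 : ¬ IsConj τ (σ ^ 2 ^ (k + 1))) (h2 : ¬ IsConj (σ * τ) (σ ^ 2 ^ (k + 1))) :
    HasNormalPComplement 2 G := by
  have h3 := not_isConj h h1
  have key : ∀ s ∈ (P : Subgroup G), s ∉ zpowers σ → ∀ u ∈ zpowers σ, ¬ IsConj s u := by
    intro s hs hs' u hu hc
    have e : u = σ ^ 2 ^ (k + 1) := eq_J h hu (by
      obtain ⟨g, rfl⟩ := isConj_iff.1 hc
      rw [H9.orderOf_conj, h.orderOf_of_notMem hs hs'])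
    obtain ⟨v, -, e' | e'⟩ := refl_cases h hs hs'
    · exact h1 ((isConj_iff.2 ⟨v, e'⟩).symm.trans (e ▸ hc))
    · exact h2 ((isConj_iff.2 ⟨v, e'⟩).symm.trans (e ▸ hc))
  rw [H4.hasNormalPComplement_iff_controls_fusion P]
  intro x hx g hg
  have hc : IsConj x (g * x * g⁻¹) := isConj_iff.2 ⟨g, rfl⟩
  by_cases hx' : x ∈ zpowers σ
  · by_cases hg' : g * x * g⁻¹ ∈ zpowers σ
    · rcases fusion_S h hx' hg' hc with e | e
      · exact ⟨1, one_mem _, by rw [e]; group⟩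
      · refine ⟨τ, h.b_mem, ?_⟩
        rw [e]
        obtain ⟨i, rfl⟩ := hx'
        exact h.conj_zpow i
    · exact absurd hc.symm (key _ hg hg' _ hx')
  · by_cases hg' : g * x * g⁻¹ ∈ zpowers σ
    · exact absurd hc (key _ hx hx' _ hg')
    obtain ⟨v, hv, e⟩ := refl_cases h hx hx'
    obtain ⟨w, hw, e'⟩ := refl_cases h hg hg'
    have f : ∀ {y : G}, v * x * v⁻¹ = y → w * (g * x * g⁻¹) * w⁻¹ = y →
        ∃ v ∈ P, v * x * v⁻¹ = g * x * g⁻¹ := fun {y} e e' =>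
      ⟨w⁻¹ * v, mul_mem (inv_mem hw) hv, by
        calc w⁻¹ * v * x * (w⁻¹ * v)⁻¹ = w⁻¹ * (v * x * v⁻¹) * w := by group
          _ = _ := by rw [e, ← e']; group⟩
    rcases e with e | e <;> rcases e' with e' | e'
    · exact f e e'
    · exact absurd ((isConj_iff.2 ⟨v, e⟩).symm.trans (hc.trans (isConj_iff.2 ⟨w, e'⟩))) h3
    · exact absurd ((isConj_iff.2 ⟨w, e'⟩).symm.trans (hc.symm.trans (isConj_iff.2 ⟨v, e⟩))) h3
    · exact f e e'

/-- Thompson transfer -/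
theorem exists_index_two (h : DihData (P : Subgroup G) (2 ^ (k + 1)) σ τ) {t : G} (ht : orderOf t = 2)
    (hn : ¬ IsConj t (σ ^ 2 ^ k)) : ∃ N : Subgroup G, N.Normal ∧ N.index = 2 := by
  by_contra hG
  push Not at hG
  obtain ⟨g, hg⟩ := exists_conj_mem_of_no_index_two hG P (zpowers σ) h.relIndex t ht
  exact hn (isConj_iff.2 ⟨g, eq_J h hg (by rw [H9.orderOf_conj, ht])⟩)

theorem mem_of_isConj {N : Subgroup G} [hN : N.Normal] {a b : G} (hc : IsConj a b) (ha : a ∈ N) : b ∈ N := by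
  obtain ⟨g, rfl⟩ := isConj_iff.1 hc
  exact hN.conj_mem a ha g

theorem odd_index_of_le {N : Subgroup G} (h : (P : Subgroup G) ≤ N) : ¬ 2 ∣ N.index := fun e =>
  P.not_dvd_index (e.trans (Subgroup.index_dvd_of_le h))

theorem index_ne_two (h : DihData (P : Subgroup G) (2 ^ (k + 1)) σ τ)
    (hone : ∀ a b : G, orderOf a = 2 → orderOf b = 2 → IsConj a b) (N : Subgroup G) : N.index ≠ 2 := by
  intro e
  haveI : N.Normal := Subgroup.normal_of_index_eq_two e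
  have hV := dih_four h h.b_mem h.notMem
  have hτ : τ ∈ N := by
    by_contra h1
    have h2 : σ ^ 2 ^ k ∉ N := fun h2 => h1 (mem_of_isConj (hone _ _ hV.ha hV.hb) h2)
    exact h1 (mem_of_isConj (hone _ _ hV.hab hV.hb) ((Subgroup.mul_mem_iff_of_index_two e).2 (by tauto)))
  exact odd_index_of_le (le_of_mem h hτ (mem_of_isConj (hone _ _ hV.hb (shift h).orderOf_b) hτ)) (e ▸ dvd_rfl)

theorem index_ne_four (h : DihData (P : Subgroup G) (2 ^ (k + 2)) σ τ) (hc : IsConj τ (σ ^ 2 ^ (k + 1)))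
    (N : Subgroup G) [N.Normal] : N.index ≠ 4 := by
  intro e
  have hcomm : IsMulCommutative (G ⧸ N) :=
    IsPGroup.isMulCommutative_of_card_eq_prime_sq (p := 2) (by rw [← Subgroup.index, e]; norm_num)
  have h2 : σ ^ 2 ∈ N := by
    rw [← QuotientGroup.eq_one_iff]
    have e1 := congrArg (QuotientGroup.mk' N) h.conj
    simp only [map_mul, map_inv] at e1
    rw [hcomm.is_comm.comm (QuotientGroup.mk' N τ), mul_inv_cancel_right] at e1
    change QuotientGroup.mk' N (σ ^ 2) = 1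
    rw [map_pow, pow_two]
    nth_rewrite 2 [e1]
    simp
  have hJ : σ ^ 2 ^ (k + 1) ∈ N := by rw [pow_succ', pow_mul]; exact pow_mem h2 _
  have hτ : τ ∈ N := mem_of_isConj hc.symm hJ
  have hM : (N ⊔ zpowers σ).index ∣ 4 := e ▸ Subgroup.index_dvd_of_le le_sup_left
  have hodd := odd_index_of_le (P := P) (N := N ⊔ zpowers σ) (le_of_mem h (mem_sup_left hτ)
    (mul_mem (mem_sup_right (mem_zpowers σ)) (mem_sup_left hτ)))
  have h1 : (N ⊔ zpowers σ).index = 1 := by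
    have := Nat.le_of_dvd (by norm_num) hM
    interval_cases hi : (N ⊔ zpowers σ).index <;> omega
  rw [Subgroup.index_eq_one] at h1
  have h3 : ∀ x : G ⧸ N, x ∈ zpowers (QuotientGroup.mk' N σ) := by
    intro x
    obtain ⟨x, rfl⟩ := QuotientGroup.mk'_surjective N x
    have hx : x ∈ N ⊔ zpowers σ := h1 ▸ mem_top x
    obtain ⟨n, hn, y, ⟨i, rfl⟩, rfl⟩ := (mem_sup_of_le_normalizer_left Subgroup.le_normalizer_of_normal).1 hx
    refine ⟨i, ?_⟩
    have : QuotientGroup.mk' N n = 1 := (QuotientGroup.eq_one_iff n).2 hn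
    simp only [map_mul, this, one_mul, map_zpow]
  have h4 := orderOf_eq_card_of_forall_mem_zpowers h3
  have h5 : orderOf (QuotientGroup.mk' N σ) ∣ 2 := orderOf_dvd_of_pow_eq_one (by
    rw [← map_pow]; exact (QuotientGroup.eq_one_iff _).2 h2)
  rw [h4, ← Subgroup.index, e] at h5
  omega

/-- only four-groups have non-trivial automisers of odd order -/
theorem four_of_odd {P : Subgroup G} (h : DihData P (2 ^ (k + 1)) σ τ) {Q : Subgroup G} (hQ : Q ≤ P) {g : G}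
    (hg : g ∈ 𝐍(Q)) (hodd : Odd (orderOf g)) (hc : g ∉ 𝐂(Q)) : ∃ s, Four Q (σ ^ 2 ^ k) s := by
  by_cases hJ : g * σ ^ 2 ^ k * g⁻¹ = σ ^ 2 ^ k
  · refine absurd (mem_centralizer_iff_commute.2 fun x hx => ?_) hc
    exact (commute_of_conj_eq (aut_eq h (β := MulAut.conj g) hodd (H41.conj_pow_orderOf g) hJ hQ
      (fun a ha => conj_mem_of_mem_normalizer hg ha) x hx)).symm.eq
  by_cases hJQ : σ ^ 2 ^ k ∈ Q
  · have hs := conj_mem_of_mem_normalizer hg hJQ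
    have hs' : g * σ ^ 2 ^ k * g⁻¹ ∉ zpowers σ := fun e =>
      hJ (eq_J h e (by rw [H9.orderOf_conj, orderOf_J h]))
    have hV := dih_four h (hQ hs) hs'
    refine ⟨_, (le_antisymm (fun x hx => ?_) (hV.le_iff.2 ⟨hJQ, hs⟩)) ▸ hV⟩
    refine mem_of_commute (dih_change h (hQ hs) hs') (hQ hx) ?_
    have := (commute_J h (hQ (conj_mem_of_mem_normalizer' hg hx))).eq
    calc x * (g * σ ^ 2 ^ k * g⁻¹) = g * (g⁻¹ * x * g * σ ^ 2 ^ k) * g⁻¹ := by group
      _ = _ := by rw [this]; group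
  · have key : ∀ u ∈ Q, u ∈ zpowers σ → u = 1 := fun u hu hu' => by
      by_contra h1
      exact hJQ (zpowers_le.2 hu (J_mem_zpowers h hu' h1))
    refine absurd (mem_centralizer_iff_commute.2 fun x hx => ?_) hc
    by_cases hx' : x ∈ zpowers σ
    · rw [key x hx hx', one_mul, mul_one]
    have hy := conj_mem_of_mem_normalizer hg hx
    have hy' : g * x * g⁻¹ ∉ zpowers σ := fun e =>
      H45.conj_ne_one (fun e1 => hx' (by rw [e1]; exact one_mem _)) (key _ hy e)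
    have e := key _ (mul_mem hx hy) (mul_mem_zpowers h (hQ hx) (hQ hy) hx' hy')
    have e2 : x * x = 1 := H9.mul_self_of_orderOf_two (h.orderOf_of_notMem (hQ hx) hx')
    exact (commute_of_conj_eq (mul_left_cancel (e.trans e2.symm))).symm.eq

theorem four_cases {V : Subgroup G} {a b g : G} (hV : Four V a b) (hg : g ∈ 𝐍(V)) :
    g * a * g⁻¹ = a ∨ g * a * g⁻¹ = b ∨ g * a * g⁻¹ = a * b :=
  (hV.mem_iff.1 (conj_mem_of_mem_normalizer hg hV.mem_left)).resolve_left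
    (H45.conj_ne_one fun e => by have := hV.ha; rw [e, orderOf_one] at this; omega)

theorem sq_mem_cent {V : Subgroup G} {a b g : G} (hV : Four V a b) (hg : g ∈ 𝐍(V)) (ha : g * a * g⁻¹ = a) :
    g ^ 2 ∈ 𝐂(V) := by
  have h1 : g ∈ 𝐂[a] := mem_centralizer_singleton_iff_conj.2 ha
  rw [hV.cent]
  refine ⟨pow_mem h1 2, ?_⟩
  rcases four_cases hV.symm hg with e | e | e
  · exact pow_mem (mem_centralizer_singleton_iff_conj.2 e) 2
  · exact absurd (by simpa using e.trans ha.symm : b = a) hV.ne.symm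
  · refine mem_centralizer_singleton_iff_conj.2 ?_
    calc g ^ 2 * b * (g ^ 2)⁻¹ = g * (g * b * g⁻¹) * g⁻¹ := by rw [pow_two]; group
      _ = (g * b * g⁻¹) * (g * a * g⁻¹) := by nth_rewrite 1 [e]; group
      _ = b := by rw [e, ha, mul_assoc, hV.aa, mul_one]

/-- an element inducing an automorphism of order three fuses the involutions -/
theorem isConj_of_three {V : Subgroup G} {a b : G} (hV : Four V a b) (h3 : 3 ∣ 𝐂(V).relIndex 𝐍(V)) :
    IsConj a b := by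
  haveI : Fact (Nat.Prime 3) := ⟨Nat.prime_three⟩
  haveI := (centralizer_normalIn_normalizer V).normal_subgroupOf
  obtain ⟨x, hx⟩ := exists_prime_orderOf_dvd_card' (G := 𝐍(V) ⧸ 𝐂(V).subgroupOf 𝐍(V)) 3 h3
  obtain ⟨⟨g, hg⟩, rfl⟩ := QuotientGroup.mk'_surjective _ x
  have key : ∀ {a b : G}, Four V a b → g * a * g⁻¹ ≠ a := fun hV e => by
    have h2 : orderOf (QuotientGroup.mk' (𝐂(V).subgroupOf 𝐍(V)) ⟨g, hg⟩) ∣ 2 := orderOf_dvd_of_pow_eq_one (by
      rw [← map_pow]; exact (QuotientGroup.eq_one_iff _).2 (sq_mem_cent hV hg e))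
    rw [hx] at h2
    omega
  rcases four_cases hV hg with e | e | e
  · exact absurd e (key hV)
  · exact isConj_iff.2 ⟨g, e⟩
  rcases four_cases hV.symm hg with e' | e' | e'
  · exact absurd e' (key hV.symm)
  · exact (isConj_iff.2 ⟨g, e'⟩).symm
  · rw [← hV.comm.eq, ← e] at e'
    exact absurd (by simpa using e' : b = a) hV.ne.symm

/-- the two classes of four-subgroups of `P` are not fused -/
theorem four_not_conj (h : DihData (P : Subgroup G) (2 ^ (k + 2)) σ τ) (g : G) :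
    (zpowers (σ ^ 2 ^ (k + 1)) ⊔ zpowers τ) ^ᶜ g ≠ zpowers (σ ^ 2 ^ (k + 1)) ⊔ zpowers (σ * τ) := by
  intro e
  have h' := shift h
  have hV := dih_four h h.b_mem h.notMem
  have hV' := dih_four h' h'.b_mem h'.notMem
  set U := zpowers (σ ^ 2 ^ (k + 1)) ⊔ zpowers τ
  set U' := zpowers (σ ^ 2 ^ (k + 1)) ⊔ zpowers (σ * τ)
  set J := σ ^ 2 ^ (k + 1) with hJ
  set w := σ ^ ((2 : ℤ) ^ k) with hw
  have hwJ : w * J * w⁻¹ = J := by rw [hw, hJ]; group
  have hwτ : ∀ {τ : G}, DihData (P : Subgroup G) (2 ^ (k + 2)) σ τ → w * τ * w⁻¹ = J * τ := fun h => by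
    have e := J_mul_τ h 0
    have e2 := conj_refl h 0 (2 ^ k)
    rw [zpow_zero, one_mul] at e e2
    exact e2.trans e.symm
  have hwU : w ∈ 𝐍(U) := hV.mem_norm (hwJ.symm ▸ hV.mem_left) ((hwτ h).symm ▸ hV.mem_mul)
  have hwU' : w ∈ 𝐍(U') := hV'.mem_norm (hwJ.symm ▸ hV'.mem_left) ((hwτ h').symm ▸ hV'.mem_mul)
  have hw2 : IsPGroup 2 (zpowers w) := P.isPGroup'.to_le (zpowers_le.2 (zpow_mem h.a_mem _))
  obtain ⟨T, hT, hwT⟩ := exists_isSylowIn_le hw2 (zpowers_le.2 hwU')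
  have hg : zpowers w ^ᶜ g ≤ 𝐍(U') := by
    rw [← e, ← cj_normalizer]; exact cj_mono g (zpowers_le.2 hwU)
  obtain ⟨n, hn, hnT⟩ := hT.exists_cj_le (isPGroup_cj hw2 g) hg
  rw [cj_cj] at hnT
  have e2 : U ^ᶜ (n * g) = U' := by rw [← cj_cj, e, cj_eq_of_mem_normalizer hn]
  obtain ⟨⟨z, hz, hzT⟩, hz1'⟩ := Subgroup.ne_bot_iff_exists_ne_one.1
    (inf_centralizer_ne_bot hV'.isPGroup hT.isP hT.le hV'.ne_bot)
  have hz1 : z ≠ 1 := fun e => hz1' (Subtype.ext e)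
  have fix : ∀ {V : Subgroup G} {s u : G}, Four V J s → w * s * w⁻¹ = J * s → u ∈ V → u ≠ 1 →
      w * u = u * w → u = J := fun {V s u} hV e hu h1 hc => by
    have hc' : w * u * w⁻¹ = u := by rw [hc, mul_inv_cancel_right]
    rcases hV.mem_iff.1 hu with e1 | e1 | e1 | e1
    · exact absurd e1 h1
    · exact e1
    · rw [e1, e] at hc'
      exact absurd hc' hV.mul_ne_right
    · rw [e1] at hc'
      have : w * (J * s) * w⁻¹ = s := by
        calc _ = (w * J * w⁻¹) * (w * s * w⁻¹) := by group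
          _ = s := by rw [hwJ, e, ← mul_assoc, hV.aa, one_mul]
      exact absurd (hc'.symm.trans this) hV.mul_ne_right
  have z1 : z = J := fix hV' (hwτ h') hz hz1 (mem_centralizer_iff_commute.1 hzT w (hwT (mem_zpowers w)))
  have z2 : (n * g)⁻¹ * z * (n * g) = J := by
    refine fix hV (hwτ h) (mem_cj.1 (e2 ▸ hz)) (fun e => hz1 ?_) ?_
    · calc z = (n * g) * ((n * g)⁻¹ * z * (n * g)) * (n * g)⁻¹ := by group
        _ = 1 := by rw [e]; group
    · have := mem_centralizer_iff_commute.1 hzT _ (hnT (cj_mem (n * g) (mem_zpowers w)))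
      calc w * ((n * g)⁻¹ * z * (n * g)) = (n * g)⁻¹ * ((n * g) * w * (n * g)⁻¹ * z) * (n * g) := by group
        _ = _ := by rw [this]; group
  have hJfix : n * g * J * (n * g)⁻¹ = J := by
    nth_rewrite 1 [← z2]
    rw [← z1]; group
  rcases hV'.mem_iff.1 (e2 ▸ cj_mem (n * g) hV.mem_right) with e3 | e3 | e3 | e3
  · exact H45.conj_ne_one (fun e4 => h.notMem (by rw [e4]; exact one_mem _)) e3
  · rw [← hJfix] at e3
    exact hV.ne (by simpa using e3.symm)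
  · exact not_conj_of_J h (i := 0) hJfix (by rw [e3]; simp)
  · refine not_conj_of_J h (i := 2 ^ k) hJfix ?_
    have := J_mul_τ h 1
    rw [zpow_one] at this
    rw [e3, this, add_comm]

/-- every four-group is conjugate to one of the two standard ones -/
theorem four_cases_conj (h : DihData (P : Subgroup G) (2 ^ (k + 1)) σ τ) {V : Subgroup G} (hV : IsKleinFour V) :
    (∃ g : G, V ^ᶜ g = zpowers (σ ^ 2 ^ k) ⊔ zpowers τ) ∨
      ∃ g : G, V ^ᶜ g = zpowers (σ ^ 2 ^ k) ⊔ zpowers (σ * τ) := by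
  obtain ⟨a, b, hV⟩ : ∃ a b, Four V a b := by
    haveI := hV
    haveI : Nontrivial V := Finite.one_lt_card_iff_nontrivial.1 (by rw [hV.card_four]; norm_num)
    obtain ⟨a, ha⟩ := exists_ne (1 : V)
    obtain ⟨b, hb⟩ := four_of_isKleinFour hV a.2 fun e => ha (Subtype.ext e)
    exact ⟨a, b, hb⟩
  obtain ⟨g, -, hg⟩ := (syl P).exists_cj_le hV.isPGroup le_top
  obtain ⟨s, hs, hs', hV'⟩ := four_J h (hV.cj g) hg
  obtain ⟨v, hv, e⟩ := refl_cases h hs hs'
  have e2 := (hV'.cj v).eq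
  rw [cj_cj, conj_eq_of_commute (commute_J h hv)] at e2
  rcases e with e | e
  · exact Or.inl ⟨_, e ▸ e2⟩
  · exact Or.inr ⟨_, e ▸ e2⟩

end H58.Dih
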