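import Mathlib
import Cfsg.Agent.Base
import Cfsg.Agent.Lib.BG.Api.Core2
import Cfsg.Agent.Lib.BG.Api.Frob
import Cfsg.Agent.Lib.Comp.FStar
import Cfsg.Agent.Lib.Core.Frattini
import Cfsg.Agent.Lib.Core.MaxSolv
import Cfsg.Agent.Lib.Core.CoprimeAbelian
import Cfsg.Agent.Lib.Core.Frobenius
import Cfsg.Agent.Lib.Transfer.Control
import Cfsg.Agent.S0117
import Cfsg.Agent.S0035

/-! Normal subgroups whose non-central elements have maximal centralizers. -/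

set_option autoImplicit false

namespace H58.MaxC

open Cfsg Subgroup H45 H69
open scoped commutatorElement

variable {G : Type*} [Group G] [Finite G]

/-- A group whose `p'`-elements are central is nilpotent. -/
theorem nil_of_central {A : Subgroup G} (p : ℕ) [Fact p.Prime]
    (h : ∀ v ∈ A, IsPiElt ({p}ᶜ : Set ℕ) v → v ∈ 𝐂(A)) : Group.IsNilpotent A := by
  have hp : IsPGroup p (A ⧸ center A) := by
    intro y
    obtain ⟨w, rfl⟩ := QuotientGroup.mk_surjective y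
    obtain ⟨k, hk⟩ := p_elt_singleton_iff_pow.1 (p_elt_constt {p} (w : G))
    refine ⟨k, ?_⟩
    rw [← QuotientGroup.mk_pow, QuotientGroup.eq_one_iff, mem_center_iff]
    intro b
    apply Subtype.ext
    have e : (w : G) ^ p ^ k = (piPart ({p}ᶜ : Set ℕ) (w : G)) ^ p ^ k := by
      conv_lhs => rw [← consttC {p} (w : G)]
      rw [(commute_constt _ _ (Commute.refl _)).mul_pow, hk, one_mul]
    have h1 := (𝐂(A)).pow_mem (h _ (constt_mem _ w.2) (p_elt_constt _ _)) (p ^ k)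
    rw [← e] at h1
    exact h1 b b.2
  haveI := hp.isNilpotent
  exact Subgroup.isNilpotent_of_ker_le_center (QuotientGroup.mk' (center A)) (by rw [QuotientGroup.ker_mk'])

/-- Thompson's argument. -/
theorem npc_of_coatom {N M : Subgroup G} [N.Normal] (hM : IsCoatom M)
    (hnil : Group.IsNilpotent (N ⊓ M : Subgroup G)) {p : ℕ} [Fact p.Prime] (hp : p ≠ 2)
    (hd : O[{p}] (N ⊓ M) ≠ ⊥) (hF : fittingSubgroup G ⊓ N = ⊥) : HasNormalPComplement p N := by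
  set P := O[{p}] (N ⊓ M) with hP
  have hS : Syl p P (N ⊓ M) := nilpotent_pcore_Syl p hnil
  have key : ∀ C : Subgroup G, C ≤ P → C ≠ ⊥ → M ≤ 𝐍(C) → 𝐍(C) = M := by
    intro C hC hne hn
    rcases hn.eq_or_lt with e | e
    · exact e.symm
    · exfalso
      haveI : C.Normal := normal_iff_top_le_normalizer.2 (hM.2 _ e).ge
      apply hne
      rw [eq_bot_iff, ← hF]
      exact le_inf (H1.le_fitting (pgroup_nil (hS.isP.to_le hC))) (hC.trans (hS.le.trans inf_le_left))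
  have hMP : M ≤ 𝐍(P) :=
    (le_normalizer_inf le_normalizer_of_normal le_normalizer).trans (norm_nilpotent_Syl hnil hS)
  have hS2 : IsSylowIn p P N :=
    isSylowIn_of_normalizer (hS.le.trans inf_le_left) (by rw [key P le_rfl hd hMP]; exact hS)
  obtain ⟨S, hSP⟩ := hS2.exists_sylow
  refine (Cfsg.Agent.S0117.result hp S).2 ?_
  refine H24.npc_of_map_subtype_le (L := N ⊓ M) ?_ H4.hasNormalPComplement_of_isNilpotent
  rw [map_subtype_normalizer, H24.map_centerThompsonOf (subtype_injective N), hSP,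
    key _ (H24.isCharIn_centerThompson p P).1 (H24.centerThompsonOf_ne_bot hS.isP hd)
      (hMP.trans (H24.isCharIn_centerThompson p P).normalizer_le)]

/-- The hypothesis. -/
def Hyp (N : Subgroup G) : Prop := ∀ x : G, x ∈ N → x ∉ 𝐂(N) → IsCoatom 𝐂[x]

variable {N : Subgroup G}

omit [Finite G] in
theorem mem_c1 {x y : G} : y ∈ 𝐂[x] ↔ Commute x y :=
  mem_centralizer_singleton_iff.trans ⟨fun h => h.symm, fun h => h.symm⟩

omit [Finite G] in
theorem Hyp.eq (h : Hyp N) {x : G} (hx : x ∈ N) (hx' : x ∉ 𝐂(N)) {K : Subgroup G}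
    (hK : 𝐂[x] ≤ K) (hne : K ≠ ⊤) : K = 𝐂[x] := by
  rcases hK.eq_or_lt with e | e
  · exact e.symm
  · exact absurd ((h x hx hx').2 _ e) hne

omit [Finite G] in
theorem Hyp.sup (h : Hyp N) {x : G} (hx : x ∈ N) (hx' : x ∉ 𝐂(N)) {L : Subgroup G}
    (hL : ¬ L ≤ 𝐂[x]) : 𝐂[x] ⊔ L = ⊤ := by
  by_contra hne
  exact hL ((h.eq hx hx' le_sup_left hne) ▸ le_sup_right)

omit [Finite G] in
theorem mem_cent_of_top {x : G} (h : 𝐂[x] = ⊤) : x ∈ 𝐂(N) := fun g _ =>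
  (mem_c1.1 (h ▸ mem_top g : g ∈ 𝐂[x])).symm

omit [Finite G] in
theorem z_le {x : G} (hx : x ∈ N) : 𝐂(N) ≤ 𝐂[x] := fun _ hz => mem_c1.2 (hz x hx)

theorem Hyp.le_of_coprime (h : Hyp N) {π : Set ℕ} {a b : G} (ha : a ∈ N) (ha' : a ∉ 𝐂(N))
    (hb : b ∈ N) (hc : Commute a b) (h1 : IsPiElt π a) (h2 : IsPiElt πᶜ b) : 𝐂[a] ≤ 𝐂[b] := by
  have e1 := constt_mul hc h1 h2
  have e2 := constt_compl_mul hc h1 h2
  have hab : a * b ∉ 𝐂(N) := fun e => ha' (e1 ▸ constt_mem π e)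
  have h3 : 𝐂[a * b] ≤ 𝐂[a] := by
    have := cent1_le_cent1_constt π (a * b)
    rwa [e1] at this
  have h4 : 𝐂[a * b] ≤ 𝐂[b] := by
    have := cent1_le_cent1_constt πᶜ (a * b)
    rwa [e2] at this
  rw [h.eq (N.mul_mem ha hb) hab h3 (h a ha ha').1]
  exact h4

theorem Hyp.mixed (h : Hyp N) {π : Set ℕ} {x y : G} (hx : x ∈ N) (hx' : x ∉ 𝐂(N))
    (hy : y ∈ N) (hy' : y ∉ 𝐂(N)) (hc : Commute x y) (h1 : IsPiElt π x) (h2 : IsPiElt πᶜ y)
    {w : G} (hw : w ∈ N) (hwx : w ∈ 𝐂[x]) : 𝐂[x] ≤ 𝐂[w] := by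
  have hxy := h.le_of_coprime hx hx' hy hc h1 h2
  rw [← cent1_consttC π w]
  refine le_inf (hxy.trans ?_) ?_
  · exact h.le_of_coprime (π := πᶜ) hy hy' (constt_mem _ hw)
      (commute_constt_right _ (mem_c1.1 (hxy hwx))) h2 (p_elt_compl_compl.2 (p_elt_constt _ _))
  · exact h.le_of_coprime hx hx' (constt_mem _ hw) (commute_constt_right _ (mem_c1.1 hwx)) h1
      (p_elt_constt _ _)

theorem Hyp.nil (h : Hyp N) {p : ℕ} [Fact p.Prime] {x : G} (hx : x ∈ N) (hx' : x ∉ 𝐂(N))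
    (h1 : IsPiElt {p} x) : Group.IsNilpotent (N ⊓ 𝐂[x] : Subgroup G) := by
  refine nil_of_central p fun v hv hv' => ?_
  by_cases hvN : v ∈ 𝐂(N)
  · exact centralizer_anti inf_le_left hvN
  · intro g hg
    exact (mem_c1.1 (h.mixed hx hx' hv.1 hvN (mem_c1.1 hv.2) h1 hv' hv.1 hv.2 hg.2)).symm

theorem exists_part {K : Subgroup G} {x : G} (hx : x ∉ K) :
    ∃ p : ℕ, p.Prime ∧ piPart {p} x ∉ K := by
  by_contra hc
  push Not at hc
  exact hx (mem_of_forall_constt hc)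

theorem Hyp.fitting [N.Normal] (h : Hyp N) (hN : ¬ N ≤ 𝐂(N)) :
    ¬ fittingSubgroup G ⊓ N ≤ 𝐂(N) := by
  intro hF
  set Z : Subgroup G := N ⊓ 𝐂(N) with hZ
  set f := QuotientGroup.mk' Z with hf
  have hker : f.ker = Z := QuotientGroup.ker_mk' Z
  have hs : Function.Surjective f := QuotientGroup.mk'_surjective Z
  haveI : (N.map f).Normal := Normal.map inferInstance f hs
  have hF0 : fittingSubgroup (G ⧸ Z) ⊓ N.map f = ⊥ := by
    set L := (fittingSubgroup (G ⧸ Z) ⊓ N.map f).comap f with hL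
    have hLN : L ≤ N := by
      refine (comap_mono inf_le_right).trans ?_
      rw [comap_map_eq, hker]
      exact sup_le le_rfl inf_le_left
    have hnil : Group.IsNilpotent L := by
      haveI : Group.IsNilpotent (fittingSubgroup (G ⧸ Z)) := inferInstance
      refine Subgroup.isNilpotent_of_ker_le_center
        ((f.comp L.subtype).codRestrict (fittingSubgroup (G ⧸ Z)) fun x => x.2.1) ?_
      intro x hx
      have h1 : f x = 1 := congrArg Subtype.val hx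
      have h2 : (x : G) ∈ Z := hker ▸ h1
      exact mem_center_iff.2 fun g => Subtype.ext (h2.2 g (hLN g.2))
    have h3 : L ≤ Z := le_inf hLN ((le_inf (H1.le_fitting hnil) hLN).trans hF)
    rw [← map_comap_eq_self_of_surjective hs (fittingSubgroup (G ⧸ Z) ⊓ N.map f), ← hL,
      Subgroup.map_eq_bot_iff, hker]
    exact h3
  have hN0 : N.map f ≠ ⊥ := by
    rw [Ne, Subgroup.map_eq_bot_iff, hker]
    exact fun e => hN (e.trans inf_le_right)
  have hE := H23.fStar_inf_ne_bot_of_isSubnormal (Normal.isSubnormal (H := N.map f) inferInstance) hN0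
  rw [← H23.map_fStar_subtype_of_isSubnormal (Normal.isSubnormal inferInstance),
    H23.map_fStar_subtype, H1.map_subtype_fitting_eq, hF0, sup_bot_eq, Ne, map_subtype_eq_bot_iff,
    H23.layer_eq_bot_iff] at hE
  push Not at hE
  obtain ⟨L, hL⟩ := hE
  obtain ⟨p, hp, hp2, hd⟩ : ∃ p : ℕ, p.Prime ∧ p ≠ 2 ∧ p ∣ Nat.card L := by
    by_contra hc
    push Not at hc
    have h2 : IsPGroup 2 L := by
      refine IsPGroup.of_card (Nat.eq_prime_pow_of_unique_prime_dvd Nat.card_pos.ne'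
        fun {d} hd hdd => ?_)
      by_contra e
      exact hc d hd e hdd
    exact H23.IsComponent.not_le_of_isSolvable hL (H1.isSolvable_of_isPGroup h2) le_rfl
  haveI := Fact.mk hp
  obtain ⟨y, hy⟩ := exists_prime_orderOf_dvd_card' p hd
  obtain ⟨w, hw, e⟩ := ((y : N.map f)).2
  have ho : orderOf (f w) = p := by rw [e, orderOf_coe, orderOf_coe, hy]
  have hfu : f (piPart {p} w) = f w := by
    rw [map_constt, constt_p_elt (p_elt_of_orderOf_prime (π := {p}) hp ho rfl)]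
  have hne : f w ≠ 1 := fun e => hp.one_lt.ne' (by rw [← ho, e, orderOf_one])
  set u := piPart {p} w with hu
  have huN : u ∈ N := constt_mem _ hw
  have hu' : u ∉ 𝐂(N) := fun e => hne (by
    rw [← hfu, ← MonoidHom.mem_ker, hker]; exact ⟨huN, e⟩)
  have hZM : f.ker ≤ 𝐂[u] := by rw [hker]; exact inf_le_right.trans (z_le huN)
  have hinf : N.map f ⊓ (𝐂[u]).map f = (N ⊓ 𝐂[u]).map f := by
    refine le_antisymm ?_ (map_inf_le _ _ _)
    rintro _ ⟨⟨a, ha, rfl⟩, b, hb, e⟩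
    refine ⟨a, ⟨ha, ?_⟩, rfl⟩
    have : b⁻¹ * a ∈ f.ker := by rw [MonoidHom.mem_ker, map_mul, map_inv, e, inv_mul_cancel]
    have := (𝐂[u]).mul_mem hb (hZM this)
    rwa [mul_inv_cancel_left] at this
  have hnil : Group.IsNilpotent (N.map f ⊓ (𝐂[u]).map f : Subgroup (G ⧸ Z)) := by
    rw [hinf]; exact H1.isNilpotent_map (h.nil huN hu' (p_elt_constt _ _)) f
  have hnpc := npc_of_coatom (H3.isCoatom_map_of_ker_le hs (h u huN hu') hZM) hnil hp2 (by
    intro e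
    have : f u ∈ O[{p}] (N.map f ⊓ (𝐂[u]).map f) :=
      (mem_nilpotent_pcore hnil ⟨⟨u, huN, rfl⟩, u, mem_c1.2 (Commute.refl u), rfl⟩).2
        (p_elt_map f (p_elt_constt _ _))
    rw [e, mem_bot, hfu] at this
    exact hne this) hF0
  refine H4.not_hasNormalPComplement_of_pResidual_eq_top
    (H4.pResidual_eq_top_of_commutator_eq_top ?_) hd (H4.hasNormalPComplement_subgroup hnpc L)
  rw [← map_subtype_eq_self_iff, _root_.commutator_def, map_commutator, map_subtype_top]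
  exact H23.IsComponent.commutator_self hL

omit [Finite G] in
theorem Hyp.frattini (h : Hyp N) {x : G} (hx : x ∈ frattini G) (hxN : x ∈ N) : x ∈ 𝐂(N) := by
  intro g hg
  by_cases hg' : g ∈ 𝐂(N)
  · exact (hg' x hxN).symm
  · exact mem_c1.1 (frattini_le_coatom (h g hg hg') hx)

theorem mem_pCore {p : ℕ} [Fact p.Prime] {u : G} (hu : u ∈ fittingSubgroup G)
    (h : IsPiElt {p} u) : u ∈ pCore p G :=
  H1.le_pCore_of_le_fitting (p_elt_singleton_iff.1 h) (zpowers_le.2 hu) (mem_zpowers u)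

theorem Hyp.pow_mem (h : Hyp N) {p : ℕ} [Fact p.Prime] {x : G} (hx : x ∈ fittingSubgroup G)
    (hxN : x ∈ N) (h' : piPart ({p}ᶜ : Set ℕ) x ∈ 𝐂(N)) : x ^ p ∈ 𝐂(N) := by
  rw [← consttC {p} x, (commute_constt _ _ (Commute.refl _)).mul_pow]
  refine (𝐂(N)).mul_mem (h.frattini ?_ (N.pow_mem (constt_mem _ hxN) p)) ((𝐂(N)).pow_mem h' p)
  have hu := mem_pCore (constt_mem {p} hx) (p_elt_constt _ _)
  exact H1.map_subtype_frattini_le (pCore p G)
    ⟨_, H1.pow_mem_frattini H1.isPGroup_pCore ⟨_, hu⟩, rfl⟩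

theorem Hyp.comm_mem (h : Hyp N) {x y : G} (hx : x ∈ fittingSubgroup G ⊓ N)
    (hy : y ∈ fittingSubgroup G ⊓ N) : x * y * x⁻¹ * y⁻¹ ∈ 𝐂(N) := by
  refine h.frattini ?_ (N.mul_mem (N.mul_mem (N.mul_mem hx.2 hy.2) (N.inv_mem hx.2)) (N.inv_mem hy.2))
  exact H1.map_subtype_frattini_le (fittingSubgroup G)
    ⟨⁅(⟨x, hx.1⟩ : fittingSubgroup G), ⟨y, hy.1⟩⁆, H1.commutator_le_frattini_of_isNilpotent
      (commutator_mem_commutator (mem_top _) (mem_top _)), rfl⟩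

omit [Finite G] in
theorem Hyp.chief (h : Hyp N) {g : G} (hg : g ∈ N) (hg' : g ∉ 𝐂(N)) {A L : Subgroup G}
    [L.Normal] (hLA : L ≤ A) (hL : ¬ L ≤ 𝐂[g]) {a : G} (ha : a ∈ A) :
    ∃ c ∈ A ⊓ 𝐂[g], ∃ l ∈ L, a = c * l := by
  have : a ∈ 𝐂[g] ⊔ L := h.sup hg hg' hL ▸ mem_top a
  obtain ⟨c, hc, l, hl, e⟩ := (mem_sup_of_le_normalizer_right le_normalizer_of_normal).1 this
  refine ⟨c, ⟨?_, hc⟩, l, hl, e⟩
  have : c = a * l⁻¹ := by rw [e]; group
  rw [this]; exact A.mul_mem ha (A.inv_mem (hLA hl))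

omit [Finite G] in
theorem mem_of_pow_mem {K : Subgroup G} {p k : ℕ} [Fact p.Prime] {a : G}
    (ha : IsPiElt ({p}ᶜ : Set ℕ) a) (h : a ^ p ^ k ∈ K) : a ∈ K := by
  have hc : (p ^ k).Coprime (orderOf a) := (p_elt_compl_singleton_iff.1 ha).symm.pow_left k
  obtain ⟨m, hm⟩ := exists_pow_eq_self_of_coprime hc
  rw [← hm]; exact K.pow_mem h m

theorem Hyp.nomix [N.Normal] (h : Hyp N) {p : ℕ} [Fact p.Prime] {u v : G} (hu : u ∈ N)
    (hu' : u ∉ 𝐂(N)) (hv : v ∈ N) (hv' : v ∉ 𝐂(N)) (hc : Commute u v) (h1 : IsPiElt {p} u)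
    (h2 : IsPiElt ({p}ᶜ : Set ℕ) v) (huF : u ∈ fittingSubgroup G) : False := by
  set F := fittingSubgroup G ⊓ N with hF
  set M := 𝐂[u] with hM
  have hA : ∀ w ∈ N ⊓ M, M ≤ 𝐂[w] := fun w hw => h.mixed hu hu' hv hv' hc h1 h2 hw.1 hw.2
  have huM : u ∈ M := mem_c1.2 (Commute.refl u)
  have hFn : Group.IsNilpotent F := H1.isNilpotent_of_le_fitting inf_le_left
  haveI hLn : (F ⊓ M).Normal := by
    by_cases hFM : F ≤ M
    · rw [inf_eq_left.2 hFM]; infer_instance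
    · have h3 : F ⊓ M < F := inf_lt_left.2 hFM
      have h4 := nilpotent_proper_norm hFn h3
      rw [normal_iff_top_le_normalizer, top_le_iff]
      by_contra hne
      have := h.eq hu hu' (le_normalizer_inf le_normalizer_of_normal le_normalizer) hne
      rw [this] at h4
      exact lt_irrefl _ h4
  have hMC : 𝐂(F ⊓ M) = M := by
    refine h.eq hu hu' (fun g hg w hw => mem_c1.1 (hA w ⟨hw.1.2, hw.2⟩ hg)) fun e => hu' ?_
    intro g _
    exact ((e ▸ mem_top g : g ∈ 𝐂(F ⊓ M)) u ⟨⟨huF, hu⟩, huM⟩).symm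
  haveI : M.Normal := hMC ▸ inferInstance
  obtain ⟨g, hg, hgM⟩ : ∃ g ∈ N, g ∉ M := by
    by_contra hc
    push Not at hc
    exact hu' fun g hg => (mem_c1.1 (hc g hg)).symm
  have hg' : g ∉ 𝐂(N) := fun e => hgM (z_le hu e)
  have hAg : ∀ a ∈ N ⊓ M ⊓ 𝐂[g], a ∈ 𝐂(N) := by
    intro a ha
    refine mem_cent_of_top ?_
    by_contra hne
    exact hgM ((h.eq hu hu' (hA a ha.1) hne).le (mem_c1.2 (mem_c1.1 ha.2).symm))
  have hvM : v ∈ M := mem_c1.2 hc
  obtain ⟨c, hc1, l, hl, e⟩ := h.chief hg hg' (A := N ⊓ M) (L := pCore p G ⊓ (N ⊓ M)) inf_le_right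
    (fun hle => hu' (hAg u ⟨⟨hu, huM⟩, hle ⟨mem_pCore huF h1, hu, huM⟩⟩)) (a := v) ⟨hv, hvM⟩
  obtain ⟨k, hk⟩ := isPGroup_iff_mem.1 (H1.isPGroup_pCore (p := p) (G := G)) l hl.1
  have hcl : Commute c l := (show Commute l c from hAg c hc1 l hl.2.1).symm
  refine hv' (mem_of_pow_mem (k := k) h2 ?_)
  rw [e, hcl.mul_pow, hk, mul_one]
  exact (𝐂(N)).pow_mem (hAg c hc1) _

/-- The Frobenius case, in the ambient group. -/
structure Fr (N F A : Subgroup G) (p q : ℕ) : Prop where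
  hp : p.Prime
  hq : q.Prime
  pq : p ≠ q
  Fn : F.Normal
  FN : F ≤ N
  AN : A ≤ N
  sup : ∀ n ∈ N, ∃ a ∈ A, ∃ f ∈ F, n = a * f
  Fne : ¬ F ≤ 𝐂(N)
  Ane : ¬ A ≤ 𝐂(N)
  Fcomm : ∀ x ∈ F, ∀ y ∈ F, x * y * x⁻¹ * y⁻¹ ∈ 𝐂(N)
  Fpow : ∀ x ∈ F, x ^ p ∈ 𝐂(N)
  Acomm : ∀ x ∈ A, ∀ y ∈ A, x * y * x⁻¹ * y⁻¹ ∈ 𝐂(N)
  Apow : ∀ x ∈ A, x ^ q ∈ 𝐂(N)
  reg : ∀ a ∈ A, ∀ x ∈ F, a * x * a⁻¹ * x⁻¹ ∈ 𝐂(N) → a ∈ 𝐂(N) ∨ x ∈ 𝐂(N)
  chief : ∀ L : Subgroup G, L.Normal → L ≤ F → ¬ L ≤ 𝐂(N) → ∀ x ∈ F, ∃ c ∈ 𝐂(N), ∃ l ∈ L, x = c * l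

theorem Hyp.main [N.Normal] (h : Hyp N) :
    (∃ p : ℕ, p.Prime ∧ (∀ x ∈ N, ∀ y ∈ N, x * y * x⁻¹ * y⁻¹ ∈ 𝐂(N)) ∧ ∀ x ∈ N, x ^ p ∈ 𝐂(N)) ∨
      ∃ F A p q, Fr N F A p q := by
  by_cases hN : N ≤ 𝐂(N)
  · exact Or.inl ⟨2, Nat.prime_two, fun x hx y hy => hN (N.mul_mem (N.mul_mem (N.mul_mem hx hy)
      (N.inv_mem hx)) (N.inv_mem hy)), fun x hx => hN (N.pow_mem hx 2)⟩
  set F := fittingSubgroup G ⊓ N with hF
  have hFn : Group.IsNilpotent F := H1.isNilpotent_of_le_fitting inf_le_left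
  obtain ⟨x1, hx1, hx1'⟩ := SetLike.not_le_iff_exists.1 (h.fitting hN)
  obtain ⟨p, hp, hx0'⟩ := exists_part hx1'
  haveI := Fact.mk hp
  set x0 := piPart {p} x1 with hx0def
  have hx0 : x0 ∈ F := constt_mem _ hx1
  have hx0p : IsPiElt {p} x0 := p_elt_constt _ _
  have ha : ∀ v ∈ F, IsPiElt ({p}ᶜ : Set ℕ) v → v ∈ 𝐂(N) := by
    intro v hv hv'
    by_contra hc
    exact h.nomix hx0.2 hx0' hv.2 hc (nilpotent_commute hFn hx0 hv hx0p hv') hx0p hv' hx0.1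
  have hFpow : ∀ x ∈ F, x ^ p ∈ 𝐂(N) := fun x hx =>
    h.pow_mem hx.1 hx.2 (ha _ (constt_mem _ hx) (p_elt_constt _ _))
  by_cases hc : ∀ v ∈ N, IsPiElt ({p}ᶜ : Set ℕ) v → v ∈ 𝐂(N)
  · have hNF : N ≤ F := le_inf (H1.le_fitting (nil_of_central p hc)) le_rfl
    exact Or.inl ⟨p, hp, fun x hx y hy => h.comm_mem (hNF hx) (hNF hy), fun x hx => hFpow x (hNF hx)⟩
  right
  push Not at hc
  obtain ⟨g1, hg1, hg1p, hg1'⟩ := hc
  obtain ⟨q, hq, hg'⟩ := exists_part hg1'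
  set g := piPart {q} g1 with hgdef
  have hg : g ∈ N := constt_mem _ hg1
  have hgp : IsPiElt ({p}ᶜ : Set ℕ) g := p_elt_of_mem_zpowers hg1p (cycle_constt _ _)
  have hgq : IsPiElt {q} g := p_elt_constt _ _
  have hpq : p ≠ q := by
    rintro rfl
    exact hg' (p_elt_eq_one hgq hgp ▸ one_mem _)
  haveI := Fact.mk hq
  have hZF : ∀ z ∈ N, z ∈ 𝐂(N) → z ∈ F := by
    have : N ⊓ 𝐂(N) ≤ fittingSubgroup G :=
      H23.inf_centralizer_le_fitting (Normal.isSubnormal inferInstance)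
    exact fun z hz hz' => ⟨this ⟨hz, hz'⟩, hz⟩
  have hb : ∀ v ∈ N, IsPiElt ({p}ᶜ : Set ℕ) v → ∀ x ∈ F, Commute x v → v ∈ 𝐂(N) ∨ x ∈ 𝐂(N) := by
    intro v hv hv' x hx hxv
    by_contra hc
    push Not at hc
    refine h.nomix (constt_mem {p} hx.2) (fun e => hc.2 ?_) hv hc.1 (commute_constt_left _ hxv)
      (p_elt_constt _ _) hv' (constt_mem _ hx.1)
    exact mem_of_consttC e (ha _ (constt_mem _ hx) (p_elt_constt _ _))
  have hFg : ∀ x ∈ F, x ∈ 𝐂[g] → x ∈ 𝐂(N) := fun x hx hxg =>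
    (hb g hg hgp x hx (mem_c1.1 hxg).symm).resolve_left hg'
  set A := N ⊓ 𝐂[g] with hA
  have hsup : ∀ n ∈ N, ∃ a ∈ A, ∃ f ∈ F, n = a * f := fun n hn =>
    h.chief hg hg' inf_le_right (fun e => hx0' (hFg _ hx0 (e hx0))) hn
  set π := QuotientGroup.mk' F with hπ
  have hπ1 : ∀ y, π y = 1 ↔ y ∈ F := fun y => QuotientGroup.eq_one_iff y
  have hd : ∀ x ∈ F, x ∉ 𝐂(N) → F ≤ 𝐂[x] := by
    intro x hx hx'
    by_contra hc
    obtain ⟨c, hc1, f, hf, e⟩ := h.chief hx.2 hx' inf_le_right hc hg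
    have hv : piPart ({p}ᶜ : Set ℕ) c ∈ 𝐂(N) :=
      (hb _ (constt_mem _ hc1.1) (p_elt_constt _ _) x hx
        (commute_constt_right _ (mem_c1.1 hc1.2))).resolve_right hx'
    have h1 : π g = π (piPart {p} c) := by
      rw [e, map_mul, (hπ1 f).2 hf, mul_one]
      conv_lhs => rw [← consttC {p} c]
      rw [map_mul, (hπ1 _).2 (hZF _ (constt_mem _ hc1.1) hv), mul_one]
    have h2 : π g = 1 := p_elt_eq_one (h1 ▸ p_elt_map π (p_elt_constt _ _)) (p_elt_map π hgp)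
    exact hg' (ha g ((hπ1 g).1 h2) hgp)
  have hFc : ∀ x ∈ F, ∀ y ∈ F, Commute x y := by
    intro x hx y hy
    by_cases hx' : x ∈ 𝐂(N)
    · exact (show Commute y x from hx' y hy.2).symm
    · exact mem_c1.1 (hd x hx hx' hy)
  have hf : ∀ u ∈ A, IsPiElt {p} u → u ∈ 𝐂(N) := by
    intro u hu hup
    by_contra hu'
    have hm : ∀ w ∈ A, 𝐂[g] ≤ 𝐂[w] := fun w hw => h.mixed (π := ({p}ᶜ : Set ℕ)) hg hg' hu.1 hu'
      (mem_c1.1 hu.2) hgp (p_elt_compl_compl.2 hup) hw.1 hw.2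
    set K := (zpowers (π u)).comap π with hK
    have hKN : K ≤ N := by
      rintro y ⟨k, hk⟩
      have : (u ^ k)⁻¹ * y ∈ F := by
        rw [← hπ1, map_mul, map_inv, map_zpow, ← hk, inv_mul_cancel]
      have := N.mul_mem (N.zpow_mem hu.1 k) this.2
      rwa [mul_inv_cancel_left] at this
    have hKn : N ≤ 𝐍(K) := by
      refine le_normalizer_of_cj_le fun n hn => ?_
      intro y hy
      obtain ⟨y, ⟨k, hk⟩, rfl⟩ := mem_cj'.1 hy
      obtain ⟨a, ha, f, hf, rfl⟩ := hsup n hn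
      refine ⟨k, ?_⟩
      have : Commute (π a) (π u ^ k) :=
        ((mem_c1.1 (hm u hu ha.2)).symm.map π).zpow_right k
      simp only [map_mul, map_inv, (hπ1 f).2 hf, mul_one, ← hk]
      rw [this.eq, mul_inv_cancel_right]
    have hKnil : Group.IsNilpotent K := by
      refine nil_of_central p fun v hv hv' => centralizer_anti hKN (ha v ((hπ1 v).1 ?_) hv')
      exact p_elt_eq_one (p_elt_of_mem_zpowers (p_elt_map π hup) hv) (p_elt_map π hv')
    have := H1.le_fitting_of_isSubnormal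
      (H23.isSubnormal_of_le_normalizer (Normal.isSubnormal inferInstance) hKN hKn) hKnil
    exact hu' (hFg u ⟨this (mem_zpowers (π u)), hu.1⟩ hu.2)
  have hreg : ∀ a ∈ A, ∀ x ∈ F, a * x * a⁻¹ * x⁻¹ ∈ 𝐂(N) → a ∈ 𝐂(N) ∨ x ∈ 𝐂(N) := by
    intro a haA x hx hz
    have hu := hf _ (constt_mem {p} haA) (p_elt_constt _ _)
    set v := piPart ({p}ᶜ : Set ℕ) a with hv
    have hvN : v ∈ N := constt_mem _ haA.1
    have ez : a * x * a⁻¹ * x⁻¹ = v * x * v⁻¹ * x⁻¹ := by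
      conv_lhs => rw [← consttC' {p} a, ← hv]
      have := hu x hx.2
      calc v * piPart {p} a * x * (v * piPart {p} a)⁻¹ * x⁻¹
          = v * (piPart {p} a * x) * (piPart {p} a)⁻¹ * v⁻¹ * x⁻¹ := by group
        _ = _ := by rw [← this]; group
    rw [ez] at hz
    set z := v * x * v⁻¹ * x⁻¹ with hzdef
    have hzx : Commute x z := hz x hx.2
    have hzv : Commute v z := hz v hvN
    have e1 : v * x * v⁻¹ = z * x := by rw [hzdef]; group
    have e2 : x⁻¹ * v * x = v * z := by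
      have : v * x = z * x * v := by rw [← e1]; group
      calc x⁻¹ * v * x = x⁻¹ * (z * x * v) := by rw [mul_assoc, this]
        _ = x⁻¹ * (x * z * v) := by rw [hzx.eq]
        _ = v * z := by rw [hzv.eq]; group
    have h1 : z ^ p = 1 := by
      have h3 : v * x ^ p * v⁻¹ = z ^ p * x ^ p := by
        rw [← conj_pow, e1, hzx.symm.mul_pow]
      rw [hFpow x hx v hvN, mul_inv_cancel_right] at h3
      exact (mul_eq_right.1 h3.symm)
    have h2 : z ^ orderOf v = 1 := by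
      have h3 : x⁻¹ * v ^ orderOf v * x⁻¹⁻¹ = v ^ orderOf v * z ^ orderOf v := by
        rw [← conj_pow, inv_inv, e2, hzv.mul_pow]
      rw [pow_orderOf_eq_one] at h3
      simpa using h3.symm
    have h3 : z ^ Nat.gcd (orderOf v) p = 1 := pow_gcd_eq_one.2 ⟨h2, h1⟩
    rw [p_elt_compl_singleton_iff.1 (p_elt_constt _ a), pow_one] at h3
    have h4 : Commute x v := by
      rw [h3, one_mul, mul_inv_eq_iff_eq_mul] at e1
      exact e1.symm
    exact (hb v hvN (p_elt_constt _ _) x hx h4).imp_left fun e => mem_of_consttC hu e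
  have hAF : ∀ a ∈ A, a ∈ F → a ∈ 𝐂(N) := fun a ha haF => hFg a haF ha.2
  have hh : ∀ K : Subgroup G, K.Normal → F ≤ K → K ≤ N → ¬ K ≤ F → N ≤ K := by
    intro K _ hFK hKN hK n hn
    have hx0F : ∀ w ∈ N, w ∈ 𝐂[x0] → w ∈ F := by
      intro w hw hwx
      obtain ⟨a, ha, f, hf, rfl⟩ := hsup w hw
      have h1 : Commute x0 a := by
        have := (𝐂[x0]).mul_mem hwx ((𝐂[x0]).inv_mem (hd x0 hx0 hx0' hf))
        rw [mul_inv_cancel_right] at this
        exact mem_c1.1 this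
      have h2 := (hreg a ha x0 hx0 (by rw [← h1.eq]; simp)).resolve_right hx0'
      exact F.mul_mem (hZF a ha.1 h2) hf
    obtain ⟨c, hc, l, hl, rfl⟩ := h.chief hx0.2 hx0' hKN
      (fun e => hK fun y hy => hx0F y (hKN hy) (e hy)) hn
    exact K.mul_mem (hFK (hx0F c hc.1 hc.2)) hl
  have hgF : g ∉ F := fun e => hg' (ha g e hgp)
  have hNc : ∀ x ∈ N, ∀ y ∈ N, Commute (π x) (π y) := by
    have hNA : N.map π = A.map π := by
      refine le_antisymm ?_ (map_mono inf_le_left)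
      rintro _ ⟨n, hn, rfl⟩
      obtain ⟨a, ha, f, hf, rfl⟩ := hsup n hn
      exact ⟨a, ha, by rw [map_mul, (hπ1 f).2 hf, mul_one]⟩
    have hsol : Group.IsSolvable (N.map π) :=
      hNA ▸ nilpotent_sol (H1.isNilpotent_map (h.nil hg hg' hgq) π)
    have hlt := H1.commutator_self_lt_of_isSolvable hsol fun e => hgF ((hπ1 g).1
      (mem_bot.1 (e ▸ (⟨g, hg, rfl⟩ : π g ∈ N.map π))))
    have hle : ⁅N, N⁆ ⊔ F ≤ F := by
      by_contra hc
      have := map_mono (f := π) (hh _ inferInstance le_sup_right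
        (sup_le (commutator_le_of_le le_rfl le_rfl) inf_le_right) hc)
      rw [Subgroup.map_sup, map_commutator, (Subgroup.map_eq_bot_iff F).2 (by rw [hπ, QuotientGroup.ker_mk']),
        sup_bot_eq] at this
      exact hlt.not_ge this
    intro x hx y hy
    have := (hπ1 _).2 (hle (mem_sup_left (commutator_mem_commutator hx hy)))
    rw [map_commutatorElement, commutatorElement_eq_one_iff_commute] at this
    exact this
  have hNq : ∀ x ∈ N, x ^ q ∈ F := by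
    let K : Subgroup G :=
      { carrier := {n | n ∈ N ∧ π n ^ q = 1}
        mul_mem' := fun {a b} ha hb => ⟨N.mul_mem ha.1 hb.1, by
          rw [map_mul, (hNc a ha.1 b hb.1).mul_pow, ha.2, hb.2, one_mul]⟩
        one_mem' := ⟨N.one_mem, by rw [map_one, one_pow]⟩
        inv_mem' := fun {a} ha => ⟨N.inv_mem ha.1, by rw [map_inv, inv_pow, ha.2, inv_one]⟩ }
    have hKn : K.Normal := ⟨fun n hn y => ⟨Normal.conj_mem inferInstance n hn.1 y, by
      rw [map_mul, map_mul, map_inv, conj_pow, hn.2, mul_one, mul_inv_cancel]⟩⟩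
    have hK : ¬ K ≤ F := by
      have h1 : π g ≠ 1 := fun e => hgF ((hπ1 g).1 e)
      obtain ⟨y, hy, hyo⟩ := exists_orderOf_eq_prime (p_elt_singleton_iff.1 (p_elt_map π hgq))
        (zpowers_ne_bot h1)
      obtain ⟨k, rfl⟩ := hy
      intro e
      have h2 : g ^ k ∈ K := ⟨N.zpow_mem hg k, by rw [map_zpow, ← hyo]; exact pow_orderOf_eq_one _⟩
      have h3 := (hπ1 _).2 (e h2)
      rw [map_zpow] at h3
      apply hq.one_lt.ne'
      rw [← hyo]
      simp only [h3, orderOf_one]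
    intro x hx
    have := hh K hKn (fun y hy => ⟨hy.2, by rw [(hπ1 y).2 hy, one_pow]⟩) (fun y hy => hy.1) hK hx
    rw [← hπ1, map_pow]; exact this.2
  refine ⟨F, A, p, q, hp, hq, hpq, inferInstance, inf_le_right, inf_le_left, hsup,
    fun e => hx0' (e hx0), fun e => hg' (e ⟨hg, mem_c1.2 (Commute.refl g)⟩),
    fun x hx y hy => h.comm_mem hx hy, hFpow, fun x hx y hy => hAF _ ?_ ?_,
    fun x hx => hAF _ (A.pow_mem hx q) (hNq x hx.1), hreg, fun L _ hLF hL x hx => ?_⟩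
  · exact A.mul_mem (A.mul_mem (A.mul_mem hx hy) (A.inv_mem hx)) (A.inv_mem hy)
  · rw [← hπ1, map_mul, map_mul, map_mul, (hNc x hx.1 y hy.1).eq, map_inv, map_inv]; group
  · obtain ⟨c, hc, l, hl, e⟩ := h.chief hg hg' hLF
      (fun e => hL fun y hy => hFg y (hLF hy) (e hy)) hx
    exact ⟨c, hFg c hc.1 hc.2, l, hl, e⟩

omit [Finite G] in
/-- The Frobenius case, in the central quotient. -/
theorem Fr.quot {F A : Subgroup G} {p q : ℕ} (h : Fr N F A p q) {H Q : Type*} [Group H] [Group Q]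
    [Finite Q] (φ : H →* G) (hr : φ.range = N) (f : H →* Q) (hf : Function.Surjective f)
    (hk : ∀ x, f x = 1 ↔ φ x ∈ 𝐂(N)) :
    ((F.comap φ).map f).Normal ∧ IsComplement' ((F.comap φ).map f) ((A.comap φ).map f) ∧
      (F.comap φ).map f ≠ ⊥ ∧ Nat.card ((A.comap φ).map f) = q ∧
      IsElementaryAbelian p ((F.comap φ).map f) ∧
      ∀ a ∈ (A.comap φ).map f, a ≠ 1 → (F.comap φ).map f ⊓ 𝐂[a] = ⊥ := by
  haveI := h.Fn
  set K := (F.comap φ).map f with hK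
  set B := (A.comap φ).map f with hB
  have hKn : K.Normal := Normal.map inferInstance f hf
  have hex : ∀ n ∈ N, ∃ x, φ x = n := fun n hn => by rw [← hr] at hn; exact hn
  have hne : ∀ X : Subgroup G, X ≤ N → ¬ X ≤ 𝐂(N) → (X.comap φ).map f ≠ ⊥ := by
    intro X hX hX' e
    apply hX'
    intro y hy
    obtain ⟨x, rfl⟩ := hex y (hX hy)
    exact (hk x).1 (mem_bot.1 (e ▸ (⟨x, hy, rfl⟩ : f x ∈ (X.comap φ).map f)))
  have hcomm : ∀ X : Subgroup G, (∀ x ∈ X, ∀ y ∈ X, x * y * x⁻¹ * y⁻¹ ∈ 𝐂(N)) →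
      IsMulCommutative ((X.comap φ).map f) := by
    intro X hX
    refine ⟨⟨?_⟩⟩
    rintro ⟨_, a, ha, rfl⟩ ⟨_, b, hb, rfl⟩
    apply Subtype.ext
    show f a * f b = f b * f a
    have := (hk (a * b * a⁻¹ * b⁻¹)).2 (by simpa using hX _ ha _ hb)
    rw [map_mul, map_mul, map_mul, map_inv, map_inv] at this
    calc f a * f b = f a * f b * (f a)⁻¹ * (f b)⁻¹ * (f b * f a) := by group
      _ = _ := by rw [this, one_mul]
  have hreg : ∀ a ∈ B, a ≠ 1 → K ⊓ 𝐂[a] = ⊥ := by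
    rintro _ ⟨a, ha, rfl⟩ h1
    rw [eq_bot_iff]
    rintro _ ⟨⟨x, hx, rfl⟩, hc⟩
    have h2 : f (a * x * a⁻¹ * x⁻¹) = 1 := by
      rw [map_mul, map_mul, map_mul, (mem_c1.1 hc).eq, map_inv, map_inv]; group
    have h3 := (hk _).1 h2
    rw [map_mul, map_mul, map_mul, map_inv, map_inv] at h3
    rcases h.reg _ ha _ hx h3 with e | e
    · exact absurd ((hk a).2 e) h1
    · exact (hk x).2 e
  have hK0 := hne F h.FN h.Fne
  have hB0 := hne A h.AN h.Ane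
  refine ⟨hKn, ?_, hK0, ?_, ⟨hcomm F h.Fcomm, ?_⟩, hreg⟩
  · refine isComplement'_of_disjoint_and_mul_eq_univ
      (disjoint_iff.2 (inf_comm B K ▸ H2.inf_eq_bot_of_semiregular hreg)) ?_
    rw [← normal_mul, coe_eq_univ, eq_top_iff]
    intro y _
    obtain ⟨y, rfl⟩ := hf y
    obtain ⟨a, ha, z, hz, e⟩ := h.sup (φ y) (hr ▸ ⟨y, rfl⟩)
    obtain ⟨a, rfl⟩ := hex a (h.AN ha)
    have h1 : f (a⁻¹ * y) ∈ K := ⟨_, by
      show φ _ ∈ F
      rw [map_mul, map_inv, e, inv_mul_cancel_left]; exact hz, rfl⟩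
    have h2 := (K ⊔ B).mul_mem (mem_sup_right (⟨a, ha, rfl⟩ : f a ∈ B)) (mem_sup_left h1)
    rwa [← map_mul, mul_inv_cancel_left] at h2
  · haveI := H2.isCyclic_of_semiregular_of_comm (hcomm A h.Acomm) (hcomm F h.Fcomm) hK0
      le_normalizer_of_normal hreg
    have h1 : Nat.card B ∣ q := by
      rw [← IsCyclic.exponent_eq_card]
      refine Monoid.exponent_dvd_of_forall_pow_eq_one ?_
      rintro ⟨_, a, ha, rfl⟩
      apply Subtype.ext
      show f a ^ q = 1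
      rw [← map_pow, hk, map_pow]
      exact h.Apow _ ha
    exact ((Nat.dvd_prime h.hq).1 h1).resolve_left fun e => hB0 (card_eq_one.1 e)
  · rintro _ ⟨a, ha, rfl⟩
    rw [← map_pow, hk, map_pow]
    exact h.Fpow _ ha

omit [Finite G] in
theorem elem_quot {p : ℕ} (h1 : ∀ x ∈ N, ∀ y ∈ N, x * y * x⁻¹ * y⁻¹ ∈ 𝐂(N))
    (h2 : ∀ x ∈ N, x ^ p ∈ 𝐂(N)) {H Q : Type*} [Group H] [Group Q]
    (φ : H →* G) (hr : ∀ x, φ x ∈ N) (f : H →* Q) (hf : Function.Surjective f)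
    (hk : ∀ x, f x = 1 ↔ φ x ∈ 𝐂(N)) : IsElementaryAbelian p (⊤ : Subgroup Q) := by
  refine ⟨⟨⟨?_⟩⟩, fun a _ => ?_⟩
  · rintro ⟨a, _⟩ ⟨b, _⟩
    obtain ⟨a, rfl⟩ := hf a
    obtain ⟨b, rfl⟩ := hf b
    apply Subtype.ext
    show f a * f b = f b * f a
    have := (hk (a * b * a⁻¹ * b⁻¹)).2 (by simpa using h1 _ (hr a) _ (hr b))
    rw [map_mul, map_mul, map_mul, map_inv, map_inv] at this
    calc f a * f b = f a * f b * (f a)⁻¹ * (f b)⁻¹ * (f b * f a) := by group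
      _ = _ := by rw [this, one_mul]
  · obtain ⟨a, rfl⟩ := hf a
    rw [← map_pow, hk, map_pow]
    exact h2 _ (hr a)

end H58.MaxC
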