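import Mathlib
import Cfsg.Agent.Base
import Cfsg.Agent.Lib.Core.Hall
import Cfsg.Agent.Lib.Core.Fitting
import Cfsg.Agent.Lib.Transfer.NormalComplement
import Cfsg.Agent.Lib.PGroup.Basic
import Cfsg.Agent.Lib.Block.PPart

/-! Hall complement systems and system normalizers. -/

set_option autoImplicit false
set_option linter.style.haveILetI false
set_option linter.unusedSectionVars false

open Cfsg Subgroup
open scoped Pointwise

namespace H58

variable {G : Type*} [Group G] [Finite G]

theorem index_inf_of_coprime {A B : Subgroup G} (h : A.index.Coprime B.index) :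
    (A ⊓ B).index = A.index * B.index :=
  le_antisymm index_inf_le (Nat.le_of_dvd (Nat.pos_of_ne_zero index_ne_zero_of_finite)
    (h.mul_dvd_of_dvd_of_dvd (index_dvd_of_le inf_le_left) (index_dvd_of_le inf_le_right)))

theorem relIndex_eq_index_of_coprime {A B : Subgroup G} (h : A.index.Coprime B.index) :
    A.relIndex B = A.index := by
  have h1 := relIndex_mul_index (inf_le_right : A ⊓ B ≤ B)
  rw [index_inf_of_coprime h, inf_relIndex_right] at h1
  exact Nat.eq_of_mul_eq_mul_right (Nat.pos_of_ne_zero index_ne_zero_of_finite) h1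

theorem exists_inv_mul_mem_of_coprime {A B : Subgroup G} (h : A.index.Coprime B.index) (g : G) :
    ∃ b ∈ B, b⁻¹ * g ∈ A := by
  let f : B ⧸ A.subgroupOf B → G ⧸ A := Quotient.map' Subtype.val fun a b hab => by
    rw [QuotientGroup.leftRel_apply] at hab ⊢
    exact hab
  have hf : Function.Injective f := by
    intro a b
    refine Quotient.inductionOn₂' a b fun a b hab => QuotientGroup.eq.2 ?_
    have h1 : ((a : G) : G ⧸ A) = (b : G) := hab
    exact mem_subgroupOf.2 (QuotientGroup.eq.1 h1)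
  have hs := (hf.bijective_of_nat_card_le (relIndex_eq_index_of_coprime h).ge).2 (g : G ⧸ A)
  obtain ⟨b, hb⟩ := hs
  obtain ⟨b, rfl⟩ := QuotientGroup.mk_surjective b
  exact ⟨b, b.2, QuotientGroup.eq.1 (show ((b : G) : G ⧸ A) = g from hb)⟩

theorem relIndex_dvd_index_of_normal_right (A N : Subgroup G) [N.Normal] :
    A.relIndex N ∣ A.index := by
  rw [← H3.relIndex_sup_right_of_le_normalizer (K := A) le_normalizer_of_normal]
  exact relIndex_dvd_index_of_le le_sup_right

theorem crt_finset {ι : Type*} (A : ι → Subgroup G)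
    (hA : ∀ i j, i ≠ j → (A i).index.Coprime (A j).index) (g : ι → G) (s : Finset ι) :
    (⨅ i ∈ s, A i).index = ∏ i ∈ s, (A i).index ∧ ∃ x : G, ∀ i ∈ s, x⁻¹ * g i ∈ A i := by
  classical
  induction s using Finset.induction_on with
  | empty => simp
  | insert j s hj ih =>
    obtain ⟨h1, x, hx⟩ := ih
    have hc : (A j).index.Coprime (⨅ i ∈ s, A i).index := by
      rw [h1]
      exact Nat.Coprime.prod_right fun i hi => hA j i fun h => hj (h ▸ hi)
    refine ⟨by rw [Finset.iInf_insert, index_inf_of_coprime hc, h1, Finset.prod_insert hj], ?_⟩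
    obtain ⟨d, hd, hdA⟩ := exists_inv_mul_mem_of_coprime hc (x⁻¹ * g j)
    refine ⟨x * d, fun i hi => ?_⟩
    rw [mul_inv_rev, mul_assoc]
    rcases Finset.mem_insert.1 hi with rfl | hi
    · exact hdA
    · exact mul_mem (inv_mem (mem_iInf.1 (mem_iInf.1 hd i) hi)) (hx i hi)

/-- Simultaneous congruences modulo subgroups of prime power index. -/
theorem crt_primes (A : Nat.Primes → Subgroup G) (hA : ∀ p, ∃ k, (A p).index = (p : ℕ) ^ k)
    (g : Nat.Primes → G) : ∃ x : G, ∀ p, x⁻¹ * g p ∈ A p := by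
  classical
  have hc : ∀ p q, p ≠ q → (A p).index.Coprime (A q).index := by
    intro p q hpq
    obtain ⟨k, hk⟩ := hA p
    obtain ⟨l, hl⟩ := hA q
    rw [hk, hl]
    exact Nat.coprime_pow_primes k l p.2 q.2 fun h => hpq (Subtype.ext h)
  obtain ⟨-, x, hx⟩ := crt_finset A hc g ((Nat.card G).primeFactors.subtype Nat.Prime)
  refine ⟨x, fun p => ?_⟩
  by_cases hp : (p : ℕ) ∣ Nat.card G
  · exact hx p (Finset.mem_subtype.2 (Nat.mem_primeFactors.2 ⟨p.2, hp, Nat.card_pos.ne'⟩))
  · obtain ⟨k, hk⟩ := hA p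
    have : k = 0 := by
      by_contra h
      exact hp ((dvd_pow_self _ h).trans (hk ▸ (A p).index_dvd_card))
    rw [this, pow_zero, index_eq_one] at hk
    rw [hk]
    exact mem_top _

theorem index_eq_iff_isPiHall {p : ℕ} (hp : p.Prime) {H : Subgroup G} :
    H.index = p ^ (Nat.card G).factorization p ↔ IsPiHall ({p}ᶜ) H := by
  haveI := Fact.mk hp
  obtain ⟨P⟩ : Nonempty (Sylow p G) := inferInstance
  rw [H3.isPiHall_compl_singleton_iff hp, ← P.card_eq_multiplicity]
  constructor
  · intro h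
    have h1 : Nat.card H = (P : Subgroup G).index := by
      have h2 := H.index_mul_card
      rw [h, ← (P : Subgroup G).card_mul_index] at h2
      exact Nat.eq_of_mul_eq_mul_left Nat.card_pos h2
    exact ⟨h1 ▸ H4.coprime_index_sylow P, _, h.trans P.card_eq_multiplicity⟩
  · rintro ⟨h1, k, hk⟩
    obtain ⟨l, hl⟩ := IsPGroup.iff_card.1 P.2
    refine H3.PiNum.eq_of_mul_eq_mul (π := {p}) (b := Nat.card H) (d := (P : Subgroup G).index)
      (hk ▸ H3.piNum_prime_pow hp (Set.mem_singleton p) k) ((H3.piNum_compl_singleton_iff hp).2 h1)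
      (hl ▸ H3.piNum_prime_pow hp (Set.mem_singleton p) l)
      ((H3.piNum_compl_singleton_iff hp).2 (H4.coprime_index_sylow P)) ?_
    rw [H.index_mul_card, (P : Subgroup G).card_mul_index]

theorem isComplementSystem_iff {K : Nat.Primes → Subgroup G} :
    IsComplementSystem K ↔ ∀ p : Nat.Primes, IsPiHall ({(p : ℕ)}ᶜ) (K p) :=
  forall_congr' fun p => index_eq_iff_isPiHall p.2

theorem exists_pow_of_le {p k : ℕ} (hp : p.Prime) {H L : Subgroup G} (h : H ≤ L)
    (hk : H.index = p ^ k) : ∃ l, L.index = p ^ l := by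
  obtain ⟨l, -, hl⟩ := (Nat.dvd_prime_pow hp).1 (hk ▸ index_dvd_of_le h)
  exact ⟨l, hl⟩

theorem mem_systemNormalizer {K : Nat.Primes → Subgroup G} {x : G} :
    x ∈ systemNormalizer K ↔ ∀ p, x ∈ normalizer (K p : Set G) := mem_iInf

theorem exists_isComplementSystem [Group.IsSolvable G] :
    ∃ K : Nat.Primes → Subgroup G, IsComplementSystem K := by
  choose K hK using fun p : Nat.Primes => H3.exists_isPiHall (G := G) ({(p : ℕ)}ᶜ)
  exact ⟨K, isComplementSystem_iff.2 hK⟩

theorem system_conj [Group.IsSolvable G] {K L : Nat.Primes → Subgroup G}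
    (hK : IsComplementSystem K) (hL : IsComplementSystem L) :
    ∃ g : G, ∀ p : Nat.Primes, MulAut.conj g • K p = L p := by
  choose g hg using fun p : Nat.Primes => H3.exists_conj_eq_of_isPiHall
    (isComplementSystem_iff.1 hK p) (isComplementSystem_iff.1 hL p)
  obtain ⟨x, hx⟩ := crt_primes (fun p => normalizer (K p : Set G))
    (fun p => exists_pow_of_le p.2 le_normalizer (hK p)) g
  refine ⟨x, fun p => ?_⟩
  rw [← hg p, ← mul_inv_cancel_left x (g p), ← H1.conj_smul_conj_smul,
    H1.mem_normalizer_iff_conj_smul_eq.1 (hx p)]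

theorem system_smul {K : Nat.Primes → Subgroup G} (hK : IsComplementSystem K) (g : G) :
    IsComplementSystem fun p => MulAut.conj g • K p := fun p => by
  rw [H1.index_conj_smul, hK p]

theorem systemNormalizer_smul (K : Nat.Primes → Subgroup G) (g : G) :
    systemNormalizer (fun p => MulAut.conj g • K p) = MulAut.conj g • systemNormalizer K := by
  ext x
  simp only [mem_systemNormalizer, H1.normalizer_conj_smul, H1.mem_conj_smul_iff]

theorem mem_hall_of_normalizes {p : ℕ} (hp : p.Prime) {H : Subgroup G} (hH : IsPiHall ({p}ᶜ) H)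
    {x : G} (hx : x ∈ normalizer (H : Set G)) (ho : ¬ p ∣ orderOf x) : x ∈ H := by
  haveI := Fact.mk hp
  refine zpowers_le.1 (H3.le_of_isPiHallOf_of_normalizes (H3.isPiHallOf_top_iff.2 hH) le_top
    (zpowers_le.2 hx) (H1.isPiSubgroup_compl_singleton_iff.2 ?_))
  rw [Nat.card_zpowers]
  exact ((Nat.Prime.coprime_iff_not_dvd hp).2 ho).symm

theorem not_dvd_card_of_hall {p : ℕ} (hp : p.Prime) {H : Subgroup G} (hH : IsPiHall ({p}ᶜ) H) :
    ¬ p ∣ Nat.card H :=
  (Nat.Prime.coprime_iff_not_dvd hp).1 ((H3.isPiHall_compl_singleton_iff hp).1 hH).1.symm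

theorem isNilpotent_of_forall_npc (h : ∀ p : ℕ, p.Prime → HasNormalPComplement p G) :
    Group.IsNilpotent G := by
  refine H1.isNilpotent_of_sylow_normal fun q _ Q => ?_
  let N : Subgroup G := ⨅ p : {p : ℕ // p.Prime ∧ p ≠ q}, pResidual p G
  have hN : IsPGroup q N := by
    rw [← H1.isPiSubgroup_singleton_iff, H1.isPiSubgroup_iff]
    intro r hr hd
    by_contra hrq
    haveI := Fact.mk hr
    exact H4.hasNormalPComplement_iff_not_dvd.1 (h r hr)
      (hd.trans (card_dvd_of_le (iInf_le _ (⟨r, hr, hrq⟩ : {p : ℕ // p.Prime ∧ p ≠ q}))))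
  have hQ : (Q : Subgroup G) ≤ N := by
    refine le_iInf fun p x hx => ?_
    haveI := Fact.mk p.2.1
    rw [H4.mem_pResidual_iff_of_hasNormalPComplement (h p p.2.1)]
    obtain ⟨k, hk⟩ := H35.isPElt_of_mem Q.2 hx
    rw [hk]
    exact Nat.Coprime.pow_left k ((Nat.coprime_primes Fact.out p.2.1).2 p.2.2.symm)
  rw [← Q.3 hN hQ]
  exact Subgroup.normal_iInf_normal fun _ => H4.pResidual_normal _ _

theorem isNilpotent_systemNormalizer {K : Nat.Primes → Subgroup G} (hK : IsComplementSystem K) :
    Group.IsNilpotent (systemNormalizer K) := by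
  refine isNilpotent_of_forall_npc fun p hp => ?_
  haveI := Fact.mk hp
  have hH := isComplementSystem_iff.1 hK ⟨p, hp⟩
  have key : ∀ x : systemNormalizer K, (orderOf x).Coprime p ↔ (x : G) ∈ K ⟨p, hp⟩ := by
    intro x
    rw [← Subgroup.orderOf_coe, Nat.coprime_comm, Nat.Prime.coprime_iff_not_dvd hp]
    exact ⟨mem_hall_of_normalizes hp hH (mem_systemNormalizer.1 x.2 _),
      H35.not_dvd_orderOf_of_mem (not_dvd_card_of_hall hp hH)⟩
  rw [H4.hasNormalPComplement_iff_mul_closed]
  intro x y hx hy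
  rw [key] at hx hy ⊢
  exact mul_mem hx hy

theorem system_map {G' : Type*} [Group G'] {K : Nat.Primes → Subgroup G}
    (hK : IsComplementSystem K) {f : G →* G'} (hf : Function.Surjective f) :
    IsComplementSystem fun p => (K p).map f := by
  haveI := Finite.of_surjective f hf
  exact isComplementSystem_iff.2 fun p => H3.isPiHall_map (isComplementSystem_iff.1 hK p) hf

theorem systemNormalizer_map [Group.IsSolvable G] {G' : Type*} [Group G']
    {K : Nat.Primes → Subgroup G} (hK : IsComplementSystem K) {f : G →* G'}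
    (hf : Function.Surjective f) :
    systemNormalizer (fun p => (K p).map f) = (systemNormalizer K).map f := by
  haveI := Finite.of_surjective f hf
  refine le_antisymm (fun y hy => ?_) (map_le_iff_le_comap.2 fun x hx =>
    mem_systemNormalizer.2 fun p => le_normalizer_map f (mem_map_of_mem f
      (mem_systemNormalizer.1 hx p)))
  obtain ⟨x, rfl⟩ := hf y
  have h1 : ∀ p : Nat.Primes, ∃ n : f.ker, (n : G)⁻¹ * x ∈ normalizer (K p : Set G) := by
    intro p
    have h2 : x ∈ normalizer ((K p ⊔ f.ker : Subgroup G) : Set G) := by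
      rw [← comap_map_eq, ← comap_normalizer_eq_of_surjective _ hf]
      exact mem_systemNormalizer.1 hy p
    obtain ⟨l, hl, hlx⟩ := H3.exists_mul_mem_normalizer_of_isPiHallOf inferInstance
      (H3.isPiHallOf_of_isPiHall (isComplementSystem_iff.1 hK p) le_sup_left) h2
    obtain ⟨k, hk, n, hn, rfl⟩ := H3.mem_sup_iff_of_normal'.1 hl
    refine ⟨⟨n⁻¹, inv_mem hn⟩, ?_⟩
    have := mul_mem (inv_mem (le_normalizer hk)) hlx
    simpa [mul_assoc] using this
  choose n hn using h1
  obtain ⟨m, hm⟩ := crt_primes (fun p => (normalizer (K p : Set G)).subgroupOf f.ker) (fun p => by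
    obtain ⟨l, hl⟩ := exists_pow_of_le p.2 le_normalizer (hK p)
    obtain ⟨j, -, hj⟩ := (Nat.dvd_prime_pow p.2).1
      (hl ▸ relIndex_dvd_index_of_normal_right (normalizer (K p : Set G)) f.ker)
    exact ⟨j, hj⟩) n
  refine ⟨(m : G)⁻¹ * x, mem_systemNormalizer.2 fun p => ?_, ?_⟩
  · have := mul_mem (show (m : G)⁻¹ * n p ∈ normalizer (K p : Set G) from hm p) (hn p)
    simpa [mul_assoc] using this
  · rw [map_mul, map_inv, MonoidHom.mem_ker.1 m.2, inv_one, one_mul]

end H58
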