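import Mathlib
import Cfsg.Agent.Base
import Cfsg.Agent.Lib.Tech58.SysNorm
import Cfsg.Agent.Lib.Tech58.PairGroup
import Cfsg.Agent.Lib.Core.CoprimeAbelian

/-! Minimal non-nilpotent groups. -/

set_option autoImplicit false
set_option linter.style.haveILetI false
set_option linter.unusedSectionVars false

open Cfsg Subgroup

namespace H58

variable {G : Type*} [Group G] [Finite G]

theorem comm_of_isNilpotent_of_abP [Group.IsNilpotent G] (h : ∀ p : ℕ, p.Prime → AbP p G) :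
    IsMulCommutative G := by
  have : center G = ⊤ := by
    refine H1.eq_top_of_forall_sylow_le fun p hp => ?_
    haveI := Fact.mk hp
    obtain ⟨P⟩ : Nonempty (Sylow p G) := inferInstance
    refine ⟨P, ?_⟩
    rw [← centralizer_univ, ← coe_top, ← H1.pCore_sup_pPrimeCore_eq_top p, le_centralizer_iff,
      ← H1.pCore_eq_sylow_of_isNilpotent P]
    exact sup_le (fun x hx => mem_centralizer_iff.2 fun y hy => h p hp _ H1.isPGroup_pCore y hy x hx)
      H1.pPrimeCore_le_centralizer_pCore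
  exact ⟨⟨fun a b => mem_center_iff.1 (this ▸ mem_top b) a⟩⟩

theorem exists_pElt_not_mem {g : G} {C : Subgroup G} (hg : g ∉ C) :
    ∃ p : ℕ, p.Prime ∧ ∃ h ∈ zpowers g, H35.IsPElt p h ∧ h ∉ C := by
  by_contra hn
  push Not at hn
  have : C.subgroupOf (zpowers g) = ⊤ := by
    refine H1.eq_top_of_forall_sylow_le fun p hp => ?_
    haveI := Fact.mk hp
    obtain ⟨P⟩ : Nonempty (Sylow p (zpowers g)) := inferInstance
    exact ⟨P, fun x hx => hn p hp x x.2 ((H35.isPElt_coe x).2 (H35.isPElt_of_mem P.2 hx))⟩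
  exact hg (subgroupOf_eq_top.1 this (mem_zpowers g))

theorem mem_centralizer_of_isNilpotent {p q : ℕ} [Fact p.Prime] [Fact q.Prime] (hpq : p ≠ q)
    {K X : Subgroup G} (hK : Group.IsNilpotent K) (hX : IsPGroup q X) (hXK : X ≤ K) {h : G}
    (hh : H35.IsPElt p h) (hK' : h ∈ K) : h ∈ centralizer (X : Set G) := by
  have h1 : ∀ (r : ℕ) [Fact r.Prime] (y : K), H35.IsPElt r (y : G) → y ∈ pCore r K := by
    intro r _ y hy
    obtain ⟨S, hS⟩ := ((H35.isPElt_coe y).1 hy).exists_sylow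
    rwa [H1.pCore_eq_sylow_of_isNilpotent S]
  refine mem_centralizer_iff.2 fun x hx => congrArg Subtype.val
    (mem_centralizer_iff.1 (H1.pCore_le_centralizer_pCore hpq (h1 p ⟨h, hK'⟩ hh)) ⟨x, hXK hx⟩
      (h1 q _ (H35.isPElt_of_mem hX hx)))

theorem not_dvd_index_of_sup {p q : ℕ} [hp : Fact p.Prime] [hq : Fact q.Prime] (hpq : p ≠ q)
    {X Y : Subgroup G} [X.Normal] (hX : IsPGroup q X) (hY : IsPGroup p Y) (h : X ⊔ Y = ⊤) :
    ¬ q ∣ X.index ∧ ¬ p ∣ Y.index := by
  obtain ⟨k, hk⟩ := IsPGroup.iff_card.1 hX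
  obtain ⟨l, hl⟩ := IsPGroup.iff_card.1 hY
  refine ⟨fun h1 => hpq ?_, fun h1 => hpq ?_⟩
  · rw [← relIndex_top_right, ← h, relIndex_sup_left] at h1
    exact ((Nat.prime_dvd_prime_iff_eq hq.out hp.out).1
      (hq.out.dvd_of_dvd_pow (hl ▸ h1.trans (relIndex_dvd_card _ _)))).symm
  · rw [← relIndex_top_right, ← h,
      H3.relIndex_sup_right_of_le_normalizer le_normalizer_of_normal] at h1
    exact (Nat.prime_dvd_prime_iff_eq hp.out hq.out).1
      (hp.out.dvd_of_dvd_pow (hk ▸ h1.trans (relIndex_dvd_card _ _)))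

/-- The structure of a minimal non-nilpotent group. -/
theorem schmidt (hG : IsMinimalNonNilpotent G) : ∃ p q : ℕ, p.Prime ∧ q.Prime ∧ p ≠ q ∧
    ∃ (P : Sylow p G) (Q : Sylow q G) (h : G), (P : Subgroup G) = zpowers h ∧
      (Q : Subgroup G).Normal ∧ (Q : Subgroup G) ⊔ P = ⊤ ∧ h ∉ centralizer (Q : Set G) := by
  obtain ⟨q, hq, h1⟩ : ∃ q : ℕ, q.Prime ∧ ¬ HasNormalPComplement q G := by
    by_contra h
    push Not at h
    exact hG.1 (isNilpotent_of_forall_npc h)
  haveI := Fact.mk hq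
  rw [H4.hasNormalPComplement_iff_forall_isPGroup] at h1
  push Not at h1
  obtain ⟨X, hX, g, hgN, hgc, hgC⟩ := h1
  obtain ⟨p, hp, h, hhg, hh, hhC⟩ := exists_pElt_not_mem hgC
  haveI := Fact.mk hp
  have hpq : p ≠ q := by
    rintro rfl
    refine hhC (hh.eq_one_of_not_dvd (H35.not_dvd_orderOf_of_mem_zpowers ?_ hhg) ▸ one_mem _)
    exact (Nat.Prime.coprime_iff_not_dvd hp).1 hgc.symm
  have htop : X ⊔ zpowers h = ⊤ := by
    by_contra h1
    exact hhC (mem_centralizer_of_isNilpotent hpq (hG.2 _ h1) hX le_sup_left hh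
      (mem_sup_right (mem_zpowers h)))
  haveI hXn : X.Normal := by
    rw [← normalizer_eq_top_iff, eq_top_iff, ← htop]
    exact sup_le le_normalizer (zpowers_le.2 (zpowers_le.2 hgN hhg))
  have hY := H35.isPElt_iff_zpowers.1 hh
  obtain ⟨h2, h3⟩ := not_dvd_index_of_sup hpq hX hY htop
  exact ⟨p, q, hp, hq, hpq, hY.toSylow h3, hX.toSylow h2, h, rfl, hXn, htop, hhC⟩

end H58
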