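import Mathlib
import Cfsg.Agent.Base
import Cfsg.Agent.Lib.Inv73.Transfer

/-! The sign of a semiregular permutation and a transfer-type consequence (helper58). -/

set_option autoImplicit false

namespace H58

open Subgroup

theorem sign_eq_neg_one_of_semiregular {α : Type*} [Fintype α] [DecidableEq α] (σ : Equiv.Perm α)
    {N k : ℕ} (hN : Even N) (hN0 : N ≠ 0) (hk : Odd k) (hc : Fintype.card α = N * k)
    (hσ : σ ^ N = 1) (h : ∀ (n : ℕ) (x : α), (σ ^ n) x = x → N ∣ n) : Equiv.Perm.sign σ = -1 := by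
  have h1 : ∀ n ∈ σ.cycleType, n = N := by
    intro n hn
    refine Nat.dvd_antisymm ((Equiv.Perm.dvd_of_mem_cycleType hn).trans
      (orderOf_dvd_of_pow_eq_one hσ)) ?_
    obtain ⟨c, τ, rfl, hd, hcyc, rfl⟩ := Equiv.Perm.mem_cycleType_iff.mp hn
    obtain ⟨x, hx, -⟩ := id hcyc
    refine h _ x ?_
    rw [hd.commute.mul_pow, ← hcyc.orderOf, pow_orderOf_eq_one, one_mul]
    exact Equiv.Perm.pow_apply_eq_self_of_apply_eq_self ((hd x).resolve_left hx) _
  have h2 : σ.support = Finset.univ := by
    rw [Finset.eq_univ_iff_forall]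
    intro x
    rw [Equiv.Perm.mem_support]
    intro hx
    have := Nat.dvd_one.mp (h 1 x (by simpa using hx))
    rw [this] at hN
    exact absurd hN (by decide)
  have h3 : σ.cycleType.sum = N * k := by rw [Equiv.Perm.sum_cycleType, h2, Finset.card_univ, hc]
  have h4 : Multiset.card σ.cycleType = k := by
    rw [Multiset.eq_replicate_card.mpr h1, Multiset.sum_replicate, smul_eq_mul, mul_comm] at h3
    exact Nat.eq_of_mul_eq_mul_left (Nat.pos_of_ne_zero hN0) h3
  rw [Equiv.Perm.sign_of_cycleType, h3, h4]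
  exact Odd.neg_one_pow ((hN.mul_right k).add_odd hk)

/-- If `⟨d⟩` has even order `N`, acts semiregularly on the cosets of `M` and `|G : M| / N` is odd,
then `d` lies outside a subgroup of index two. -/
theorem exists_index_two_of_semiregular {G : Type*} [Group G] [Finite G] (M : Subgroup G) (d : G)
    {k : ℕ} (hN : Even (orderOf d)) (hk : Odd k) (hc : M.index = orderOf d * k)
    (h : ∀ (n : ℕ) (g : G), g⁻¹ * d ^ n * g ∈ M → d ^ n = 1) :
    ∃ N : Subgroup G, N.Normal ∧ N.index = 2 ∧ d ∉ N := by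
  classical
  let _ := Fintype.ofFinite (G ⧸ M)
  let f : G →* ℤˣ := Equiv.Perm.sign.comp (MulAction.toPermHom G (G ⧸ M))
  have hf : f d = -1 := by
    refine sign_eq_neg_one_of_semiregular (MulAction.toPermHom G (G ⧸ M) d) hN
      (orderOf_pos d).ne' hk (by rw [← hc, index, Nat.card_eq_fintype_card])
      (by rw [← map_pow, pow_orderOf_eq_one, map_one]) fun n x hx => ?_
    obtain ⟨g, rfl⟩ := QuotientGroup.mk_surjective x
    rw [← map_pow, MulAction.toPermHom_apply, MulAction.toPerm_apply, MulAction.Quotient.smul_mk,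
      smul_eq_mul, eq_comm, QuotientGroup.eq, ← mul_assoc] at hx
    exact orderOf_dvd_of_pow_eq_one (h n g hx)
  exact ⟨f.ker, inferInstance, H73.index_ker_eq_two f hf, by
    rw [MonoidHom.mem_ker, hf]; decide⟩

end H58
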